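import Cfsg.Agent.Lib.Helper33.RelSylow

set_option autoImplicit false

namespace Cfsg.Agent.Lib.Helper33

open scoped Pointwise

variable {X : Type*} [Group X]

/-- the elements acting trivially on `A` modulo `B`. -/
def linkStab [Finite X] (A B : Subgroup X) (hBA : B ≤ A) : Subgroup X where
  carrier := {l | ∀ v ∈ A, l * v * l⁻¹ * v⁻¹ ∈ B}
  one_mem' := by
    intro v _
    simp only [one_mul, inv_one, mul_one, mul_inv_cancel]
    exact B.one_mem
  mul_mem' := by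
    intro l l' hl hl' v hv
    have h1 := hl' v hv
    have hv' : l' * v * l'⁻¹ ∈ A := by
      have := A.mul_mem (hBA h1) hv
      simpa using this
    have h2 := hl _ hv'
    have e : l * l' * v * (l * l')⁻¹ * v⁻¹ =
        (l * (l' * v * l'⁻¹) * l⁻¹ * (l' * v * l'⁻¹)⁻¹) * (l' * v * l'⁻¹ * v⁻¹) := by group
    rw [e]
    exact B.mul_mem h2 h1
  inv_mem' := by
    intro l hl v hv
    have hle : MulAut.conj l • A ≤ A := by
      rintro _ ⟨a, ha, rfl⟩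
      have := A.mul_mem (hBA (hl a ha)) ha
      simpa using this
    have heq := conj_smul_eq_of_le hle
    have hv0 : l⁻¹ * v * l ∈ A := by
      rw [← mem_conj_smul, heq]; exact hv
    have h1 := hl _ hv0
    have e : l⁻¹ * v * l⁻¹⁻¹ * v⁻¹ = (l * (l⁻¹ * v * l) * l⁻¹ * (l⁻¹ * v * l)⁻¹)⁻¹ := by group
    rw [e]
    exact B.inv_mem h1

theorem mem_linkStab [Finite X] {A B : Subgroup X} {hBA : B ≤ A} {l : X} :
    l ∈ linkStab A B hBA ↔ ∀ v ∈ A, l * v * l⁻¹ * v⁻¹ ∈ B := Iff.rfl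

/-- squaring lowers the action by one step. -/
theorem sq_link {A B Z : Subgroup X} (hB2 : ∀ b ∈ B, b * b = 1) {l : X}
    (h1 : ∀ v ∈ A, l * v * l⁻¹ * v⁻¹ ∈ B) (h2 : ∀ b ∈ B, l * b * l⁻¹ * b⁻¹ ∈ Z) :
    ∀ v ∈ A, (l * l) * v * (l * l)⁻¹ * v⁻¹ ∈ Z := by
  intro v hv
  set b := l * v * l⁻¹ * v⁻¹ with hb
  have hbB : b ∈ B := h1 v hv
  have h3 := h2 b hbB
  have e : (l * l) * v * (l * l)⁻¹ * v⁻¹ = (l * b * l⁻¹ * b⁻¹) * (b * b) := by
    rw [hb]; group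
  rw [e, hB2 b hbB, mul_one]
  exact h3

end Cfsg.Agent.Lib.Helper33
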