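import Mathlib
import Cfsg.Agent.Lib.Helper9.Schmidt

set_option autoImplicit false

namespace Cfsg.Agent.Lib.Helper33

open scoped Pointwise

/-- a proper subgroup of a finite `p`-group lies in a normal subgroup of index `p`. -/
theorem exists_normal_index_p_of_ne_top {P : Type*} [Group P] [Finite P] {p : ℕ} [Fact p.Prime]
    (hP : IsPGroup p P) {K : Subgroup P} (hK : K ≠ ⊤) :
    ∃ P₁ : Subgroup P, P₁.Normal ∧ P₁.index = p ∧ K ≤ P₁ := by
  obtain ⟨M, hM, hle⟩ := (eq_top_or_exists_le_coatom K).resolve_left hK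
  have := hP.isNilpotent
  have hMn : M.Normal :=
    Subgroup.NormalizerCondition.normal_of_coatom M Group.normalizerCondition_of_isNilpotent hM
  have hpr := Cfsg.Agent.Lib.Helper9.index_prime_of_normal_isCoatom hMn hM
  refine ⟨M, hMn, ?_, hle⟩
  obtain ⟨n, hn⟩ := IsPGroup.iff_card.1 hP
  have hdvd : M.index ∣ p ^ n := hn ▸ M.index_dvd_card
  exact (Nat.prime_dvd_prime_iff_eq hpr Fact.out).1 (hpr.dvd_of_dvd_pow hdvd)

/-- the product of an equivariant function over an orbit whose stabilizer lies in `P₁` is a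
`|P : P₁|`-th power, if the fixed points of `P₁` are fixed by the whole group. -/
theorem prod_orbit_eq_pow {P Ω B : Type*} [Group P] [Finite P] [MulAction P Ω] [Fintype Ω]
    [CommGroup B] (F : Ω → B) (ψ : P → (B →* B)) (hF : ∀ g q, F (g • q) = ψ g (F q))
    (P₁ : Subgroup P) (hfixed : ∀ b : B, (∀ g ∈ P₁, ψ g b = b) → ∀ g, ψ g b = b)
    (q0 : Ω) (hq0 : MulAction.stabilizer P q0 ≤ P₁) (O : Finset Ω)
    (hO : ∀ q, q ∈ O ↔ q ∈ MulAction.orbit P q0) :
    ∃ z : B, ∏ q ∈ O, F q = z ^ P₁.index := by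
  classical
  have := Fintype.ofFinite (P ⧸ P₁)
  let lam : Ω → P ⧸ P₁ := fun q =>
    if h : q ∈ MulAction.orbit P q0 then ((Classical.choose h : P) : P ⧸ P₁) else ((1 : P) : P ⧸ P₁)
  have hlam : ∀ h : P, lam (h • q0) = (h : P ⧸ P₁) := by
    intro h
    have hm : h • q0 ∈ MulAction.orbit P q0 := MulAction.mem_orbit _ _
    have h1 : lam (h • q0) = ((Classical.choose hm : P) : P ⧸ P₁) := dif_pos hm
    have h2 : (Classical.choose hm : P) • q0 = h • q0 := Classical.choose_spec hm
    rw [h1]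
    generalize (Classical.choose hm : P) = c at h2
    rw [QuotientGroup.eq]
    apply hq0
    rw [MulAction.mem_stabilizer_iff, mul_smul, ← h2, inv_smul_smul]
  let T : P ⧸ P₁ → B := fun d => ∏ q ∈ O with lam q = d, F q
  have hT : ∀ g : P, T (g : P ⧸ P₁) = ψ g (T ((1 : P) : P ⧸ P₁)) := by
    intro g
    show ∏ q ∈ O with lam q = (g : P ⧸ P₁), F q = ψ g (∏ q ∈ O with lam q = ((1 : P) : P ⧸ P₁), F q)
    rw [map_prod]
    symm
    refine Finset.prod_bij (fun q _ => g • q) ?_ ?_ ?_ ?_
    · intro q hq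
      rw [Finset.mem_filter, hO] at hq ⊢
      obtain ⟨⟨h, rfl⟩, hq2⟩ := hq
      have e : g • (fun m : P => m • q0) h = (g * h) • q0 := (mul_smul g h q0).symm
      have hq2' : lam (h • q0) = ((1 : P) : P ⧸ P₁) := hq2
      rw [hlam, QuotientGroup.eq] at hq2'
      rw [e]
      refine ⟨MulAction.mem_orbit _ _, ?_⟩
      rw [hlam, QuotientGroup.eq]
      have : (g * h)⁻¹ * g = h⁻¹ * 1 := by group
      rw [this]; exact hq2'
    · intro a _ b _ hab
      exact MulAction.injective g hab
    · intro q hq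
      rw [Finset.mem_filter, hO] at hq
      obtain ⟨⟨h, rfl⟩, hq2⟩ := hq
      have hq2' : lam (h • q0) = (g : P ⧸ P₁) := hq2
      rw [hlam, QuotientGroup.eq] at hq2'
      refine ⟨(g⁻¹ * h) • q0, ?_, ?_⟩
      · rw [Finset.mem_filter, hO]
        refine ⟨MulAction.mem_orbit _ _, ?_⟩
        rw [hlam, QuotientGroup.eq]
        have : (g⁻¹ * h)⁻¹ * 1 = h⁻¹ * g := by group
        rw [this]; exact hq2'
      · show g • (g⁻¹ * h) • q0 = h • q0
        rw [← mul_smul, mul_inv_cancel_left]
    · intro q _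
      exact (hF g q).symm
  set z := T ((1 : P) : P ⧸ P₁) with hz
  have hz1 : ∀ g ∈ P₁, ψ g z = z := by
    intro g hg
    rw [← hT g]
    have : (g : P ⧸ P₁) = ((1 : P) : P ⧸ P₁) := by
      rw [QuotientGroup.eq]; simpa using hg
    rw [this]
  have hz2 := hfixed z hz1
  have hT2 : ∀ d : P ⧸ P₁, T d = z := by
    intro d
    induction d using QuotientGroup.induction_on with
    | H g => rw [hT g, hz2 g]
  refine ⟨z, ?_⟩
  rw [← Finset.prod_fiberwise O lam F]
  have : ∀ d ∈ (Finset.univ : Finset (P ⧸ P₁)), (∏ q ∈ O with lam q = d, F q) = z :=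
    fun d _ => hT2 d
  rw [Finset.prod_congr rfl this, Finset.prod_const, Finset.card_univ, Subgroup.index_eq_card,
    Nat.card_eq_fintype_card]

/-- the product of an equivariant function over the points not fixed by the `p`-group `P` is a
product of `p`-th powers, under the hyperplane hypothesis. -/
theorem prod_nonfixed_mem {P Ω B : Type*} [Group P] [Finite P] [MulAction P Ω] [Fintype Ω]
    [CommGroup B] {p : ℕ} [Fact p.Prime] (hP : IsPGroup p P)
    (F : Ω → B) (ψ : P → (B →* B)) (hF : ∀ g q, F (g • q) = ψ g (F q))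
    (hHP : ∀ P₁ : Subgroup P, P₁.Normal → P₁.index = p → ∀ b : B, (∀ g ∈ P₁, ψ g b = b) →
      ∀ g, ψ g b = b)
    (U : Subgroup B) (hU : ∀ b : B, b ^ p ∈ U) (s : Finset Ω)
    (hs : ∀ q, q ∈ s ↔ ¬ ∀ g : P, g • q = q) :
    ∏ q ∈ s, F q ∈ U := by
  classical
  have := Fintype.ofFinite (MulAction.orbitRel.Quotient P Ω)
  rw [← Finset.prod_fiberwise s (fun q => (Quotient.mk'' q : MulAction.orbitRel.Quotient P Ω)) F]
  apply Subgroup.prod_mem
  intro ω _
  induction ω using Quotient.inductionOn' with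
  | h q0 =>
  have hrel : ∀ q : Ω, (Quotient.mk'' q : MulAction.orbitRel.Quotient P Ω) = Quotient.mk'' q0 ↔
      q ∈ MulAction.orbit P q0 := by
    intro q
    rw [Quotient.eq'']
    exact MulAction.orbitRel_apply
  by_cases hq0 : ∀ g : P, g • q0 = q0
  · have hemp : (s.filter fun q =>
        (Quotient.mk'' q : MulAction.orbitRel.Quotient P Ω) = Quotient.mk'' q0) = ∅ := by
      rw [Finset.filter_eq_empty_iff]
      intro q hq hq2
      rw [hrel] at hq2
      obtain ⟨g, rfl⟩ := hq2
      apply (hs _).1 hq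
      intro h
      show h • g • q0 = g • q0
      rw [hq0 g, hq0 h]
    rw [hemp, Finset.prod_empty]
    exact U.one_mem
  · have hne : MulAction.stabilizer P q0 ≠ ⊤ := by
      intro h
      apply hq0
      intro g
      have : g ∈ MulAction.stabilizer P q0 := by rw [h]; exact Subgroup.mem_top g
      exact this
    obtain ⟨P₁, hP₁n, hP₁i, hle⟩ := exists_normal_index_p_of_ne_top hP hne
    obtain ⟨z, hz⟩ := prod_orbit_eq_pow F ψ hF P₁ (hHP P₁ hP₁n hP₁i) q0 hle
      (s.filter fun q =>
        (Quotient.mk'' q : MulAction.orbitRel.Quotient P Ω) = Quotient.mk'' q0) (by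
      intro q
      rw [Finset.mem_filter, hrel, hs]
      constructor
      · exact fun h => h.2
      · intro h
        refine ⟨?_, h⟩
        obtain ⟨g, rfl⟩ := h
        intro hfix
        apply hq0
        intro h'
        have h1 : g⁻¹ • (g • q0) = g • q0 := hfix g⁻¹
        rw [inv_smul_smul] at h1
        have h2 := hfix h'
        have h3 : (fun m : P => m • q0) g = q0 := h1.symm
        rw [h3] at h2
        exact h2)
    rw [hz, hP₁i]
    exact hU z

end Cfsg.Agent.Lib.Helper33
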