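import Cfsg.Agent.Lib.Helper33.PairControl2
import Cfsg.Agent.Lib.Helper33.Transfer

set_option autoImplicit false

namespace Cfsg.Agent.Lib.Helper33

open scoped Pointwise
open Cfsg

variable {G : Type*} [Group G] {p : ℕ}

/-- `Q ∩ (N_L(W Q))'`. -/
def DN (W : Subgroup G → Subgroup G) (L Q : Subgroup G) : Subgroup G :=
  Q ⊓ ⁅L ⊓ Subgroup.normalizer ((W Q : Subgroup G) : Set G),
    L ⊓ Subgroup.normalizer ((W Q : Subgroup G) : Set G)⁆

/-- `Q ∩ (C_L(V Q))'`. -/
def DC (V : Subgroup G → Subgroup G) (L Q : Subgroup G) : Subgroup G :=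
  Q ⊓ ⁅L ⊓ Subgroup.centralizer ((V Q : Subgroup G) : Set G),
    L ⊓ Subgroup.centralizer ((V Q : Subgroup G) : Set G)⁆

/-- `W` with `V` controls transfer in `L` with respect to `Q` (the useful inclusion). -/
def TCtl (W V : Subgroup G → Subgroup G) (L Q : Subgroup G) : Prop :=
  Q ⊓ ⁅L, L⁆ ≤ DN W L Q ⊔ DC V L Q

theorem DN_conj {W : Subgroup G → Subgroup G} (hW : IsConjugacyFunctor p W) {L Q : Subgroup G}
    (hQ : IsPGroup p ↥Q) (k : G) :
    DN W (MulAut.conj k • L) (MulAut.conj k • Q) = MulAut.conj k • DN W L Q := by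
  unfold DN
  rw [Subgroup.smul_inf, conj_smul_commutator, Subgroup.smul_inf, smul_normalizer,
    IsConjugacyFunctor.smul hW hQ]

theorem DC_conj {V : Subgroup G → Subgroup G} (hV : IsConjugacyFunctor p V) {L Q : Subgroup G}
    (hQ : IsPGroup p ↥Q) (k : G) :
    DC V (MulAut.conj k • L) (MulAut.conj k • Q) = MulAut.conj k • DC V L Q := by
  unfold DC
  rw [Subgroup.smul_inf, conj_smul_commutator, Subgroup.smul_inf, smul_centralizer,
    IsConjugacyFunctor.smul hV hQ, Subgroup.coe_pointwise_smul]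

theorem TCtl.conj {W V : Subgroup G → Subgroup G} (hW : IsConjugacyFunctor p W)
    (hV : IsConjugacyFunctor p V) {L Q : Subgroup G} (hQ : IsPGroup p ↥Q) (k : G)
    (h : TCtl W V (MulAut.conj k • L) (MulAut.conj k • Q)) : TCtl W V L Q := by
  unfold TCtl at h ⊢
  rw [DN_conj hW hQ, DC_conj hV hQ, ← Subgroup.smul_sup, ← conj_smul_commutator,
    ← Subgroup.smul_inf] at h
  exact Subgroup.pointwise_smul_le_pointwise_smul_iff.1 h

/-- local-to-global theorem for control of transfer by `W` with `V`. -/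
theorem TCtl_of_local [Fact p.Prime] [Finite G] (S : Sylow p G) {W V : Subgroup G → Subgroup G}
    (hW : IsConjugacyFunctor p W) (hV : IsConjugacyFunctor p V)
    (hWZ : ∀ H : Subgroup G, IsPGroup p ↥H → H ⊓ Subgroup.centralizer (H : Set G) ≤ W H)
    (hVmono : ∀ H K : Subgroup G, IsPGroup p ↥H → IsPGroup p ↥K → H ≠ ⊥ → K ≠ ⊥ →
      H ⊓ Subgroup.centralizer (H : Set G) ≤ K ⊓ Subgroup.centralizer (K : Set G) → V H ≤ V K)
    (hloc : ∀ H : Subgroup G,
      (S : Subgroup G) ⊓ Subgroup.centralizer ((S : Subgroup G) : Set G) ≤ H →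
      H ≤ (S : Subgroup G) → ∃ Q, RelSyl p Q (Subgroup.normalizer (H : Set G)) ∧
        TCtl W V (Subgroup.normalizer (H : Set G)) Q) :
    TCtl W V ⊤ S := by
  set D := DN W ⊤ (S : Subgroup G) ⊔ DC V ⊤ (S : Subgroup G) with hD
  have hG : FusionRel (GoodD D) := fusionRel_goodD D
  have hSN : (S : Subgroup G) ≤ Subgroup.normalizer ((W (S : Subgroup G) : Subgroup G) : Set G) :=
    Subgroup.le_normalizer.trans (IsConjugacyFunctor.normalizer_le hW S.2)
  have key : ∀ (A : Set G), A ⊆ (S : Subgroup G) → ∀ g : G,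
      MulAut.conj g • A ⊆ (S : Subgroup G) → GoodD D A g := by
    intro A hA g hg
    refine local_to_global_centric S (𝓦 := {W}) (fun W' hW' => (show W' = W from hW') ▸ hW) hG
      (overCenter (S : Subgroup G)) (fun U hU hc => mem_overCenter_of_centric hU hc) ?_ ?_ ?_
      A hA g hg
    · intro W' hW' R hR hZ u _
      have hW'' : W' = W := hW'
      rw [hW'']
      exact mem_overCenter_functor hW hWZ S.2 hR hZ u
    · intro W' hW' y hy B hB hyB b hb
      have hW'' : W' = W := hW'
      rw [hW''] at hy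
      refine (le_sup_left : DN W ⊤ (S : Subgroup G) ≤ D) ⟨?_, ?_⟩
      · exact (S : Subgroup G).mul_mem (hyB (conj_mem_conj_smul hb))
          ((S : Subgroup G).inv_mem (hB hb))
      · exact Subgroup.commutator_mem_commutator ⟨Subgroup.mem_top y, hy⟩
          ⟨Subgroup.mem_top b, hSN (hB hb)⟩
    · intro T hTS hTH hT0 hrel Hy B hB h hh hhB
      set R := (S : Subgroup G) ⊓ Subgroup.normalizer (T : Set G) with hR
      have hRp : IsPGroup p ↥R := isPGroup_of_le S.2 inf_le_left
      obtain ⟨k, hk⟩ := exists_conj_overCenter hTH hrel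
        (fun H Q => TCtl W V (Subgroup.normalizer (H : Set G)) Q) hloc
      rw [← smul_normalizer] at hk
      have hctl : TCtl W V (Subgroup.normalizer (T : Set G)) R := TCtl.conj hW hV hRp k hk
      have hRN : R ≤ Subgroup.normalizer ((W R : Subgroup G) : Set G) :=
        Subgroup.le_normalizer.trans (IsConjugacyFunctor.normalizer_le hW hRp)
      have h1 : DN W (Subgroup.normalizer (T : Set G)) R ≤ D := by
        refine RelSyl.inf_commutator_le (hrel.mono (le_inf inf_le_right hRN) inf_le_left) ?_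
        intro x hx u hu hux
        exact Hy W rfl u hu {x} (Set.singleton_subset_iff.2 hx) (by
          rintro _ ⟨b, rfl, rfl⟩
          exact hux) x rfl
      have hTR : T ≤ R := le_inf hTS Subgroup.le_normalizer
      have hR0 : R ≠ ⊥ := fun h0 => hT0 (le_bot_iff.1 (h0 ▸ hTR))
      have hS0 : (S : Subgroup G) ≠ ⊥ := fun h0 => hT0 (le_bot_iff.1 (h0 ▸ hTS))
      have hVV : V (S : Subgroup G) ≤ V R := hVmono _ _ S.2 hRp hS0 hR0
        (center_le_center inf_le_left (center_le_inf_normalizer hTS))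
      have hCC : Subgroup.normalizer (T : Set G) ⊓ Subgroup.centralizer ((V R : Subgroup G) : Set G) ≤
          ⊤ ⊓ Subgroup.centralizer ((V (S : Subgroup G) : Subgroup G) : Set G) :=
        le_inf le_top (inf_le_right.trans (Subgroup.centralizer_le hVV))
      have h2 : DC V (Subgroup.normalizer (T : Set G)) R ≤ D :=
        le_trans (inf_le_inf inf_le_left (Subgroup.commutator_mono hCC hCC)) le_sup_right
      intro b hb
      refine (sup_le h1 h2) (hctl ⟨?_, ?_⟩)
      · exact R.mul_mem (hhB (conj_mem_conj_smul hb)) (R.inv_mem (hB hb))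
      · exact Subgroup.commutator_mem_commutator hh (hB hb).2
  refine RelSyl.inf_commutator_le (relSyl_top S) ?_
  intro x hx u _ hux
  exact key {x} (Set.singleton_subset_iff.2 hx) u (by
    rintro _ ⟨b, rfl, rfl⟩
    exact hux) x rfl

end Cfsg.Agent.Lib.Helper33
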