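import Mathlib

/-! Best offenders acting quadratically on an elementary abelian 2-group `V`, in a group all of
whose 2-subgroups are abelian and act quadratically: the `S4` pattern. Everything happens inside
`MulAut V`. -/

set_option autoImplicit false

namespace Cfsg.Agent.Lib.Helper33.QuadOffender

open Subgroup

section grp
variable {V : Type*} [Group V]

/-- fixed points -/
def fixS (B : Subgroup (MulAut V)) : Subgroup V where
  carrier := {v | ∀ b ∈ B, b v = v}
  one_mem' := fun b _ => map_one b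
  mul_mem' := fun {v w} hv hw b hb => by rw [map_mul, hv b hb, hw b hb]
  inv_mem' := fun {v} hv b hb => by rw [map_inv, hv b hb]

theorem mem_fixS {B : Subgroup (MulAut V)} {v : V} : v ∈ fixS B ↔ ∀ b ∈ B, b v = v := Iff.rfl

theorem fixS_anti {B C : Subgroup (MulAut V)} (h : B ≤ C) : fixS C ≤ fixS B :=
  fun _ hv b hb => hv b (h hb)

/-- `A` lies in a normal 2-subgroup of `H` -/
def Sub2 (A H : Subgroup (MulAut V)) : Prop :=
  ∃ D : Subgroup (MulAut V), A ≤ D ∧ D ≤ H ∧ H ≤ normalizer (D : Set (MulAut V)) ∧ IsPGroup 2 D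

end grp

variable {V : Type*} [CommGroup V]

/-- `d g v = g v * v⁻¹` -/
def dd (g : MulAut V) : V →* V where
  toFun v := g v * v⁻¹
  map_one' := by simp
  map_mul' v w := by
    rw [map_mul, mul_inv, mul_mul_mul_comm]

theorem dd_apply (g : MulAut V) (v : V) : dd g v = g v * v⁻¹ := rfl

theorem dd_eq_one_iff (g : MulAut V) (v : V) : dd g v = 1 ↔ g v = v := by
  rw [dd_apply, mul_inv_eq_one]

theorem dd_mul (g g' : MulAut V) (v : V) : dd (g * g') v = g (dd g' v) * dd g v := by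
  simp only [dd_apply, MulAut.mul_apply, map_mul, map_inv]
  rw [mul_assoc, inv_mul_cancel_left]

theorem dd_inv (g : MulAut V) (v : V) : dd g⁻¹ v = g⁻¹ ((dd g v)⁻¹) := by
  simp only [dd_apply, map_mul, map_inv, mul_inv, inv_inv, MulAut.inv_apply_self]
  rw [mul_comm]

theorem dd_conj (h g : MulAut V) (v : V) : dd h (g v) = g (dd (g⁻¹ * h * g) v) := by
  simp only [dd_apply, MulAut.mul_apply, map_mul, map_inv, MulAut.apply_inv_self]

/-- elements of `H` moving `v` inside `M` -/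
def stabSub (H : Subgroup (MulAut V)) (M : Subgroup V) (hM : ∀ h ∈ H, ∀ m ∈ M, h m ∈ M) (v : V) :
    Subgroup (MulAut V) where
  carrier := {g | g ∈ H ∧ dd g v ∈ M}
  one_mem' := ⟨one_mem _, by
    have : dd (1 : MulAut V) v = 1 := by simp [dd_apply]
    rw [this]; exact one_mem _⟩
  mul_mem' := fun {g g'} hg hg' => ⟨mul_mem hg.1 hg'.1, by
    rw [dd_mul]; exact mul_mem (hM g hg.1 _ hg'.2) hg.2⟩
  inv_mem' := fun {g} hg => ⟨inv_mem hg.1, by
    rw [dd_inv]; exact hM _ (inv_mem hg.1) _ (inv_mem hg.2)⟩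

theorem mem_stabSub {H : Subgroup (MulAut V)} {M : Subgroup V} {hM : ∀ h ∈ H, ∀ m ∈ M, h m ∈ M}
    {v : V} {g : MulAut V} : g ∈ stabSub H M hM v ↔ g ∈ H ∧ dd g v ∈ M := Iff.rfl

/-- the next term of the upper `H`-central series of `V` -/
def up (H : Subgroup (MulAut V)) (M : Subgroup V) : Subgroup V where
  carrier := {v | ∀ h ∈ H, dd h v ∈ M}
  one_mem' := fun h _ => by rw [map_one]; exact one_mem _
  mul_mem' := fun {v w} hv hw h hh => by rw [map_mul]; exact mul_mem (hv h hh) (hw h hh)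
  inv_mem' := fun {v} hv h hh => by rw [map_inv]; exact inv_mem (hv h hh)

theorem mem_up {H : Subgroup (MulAut V)} {M : Subgroup V} {v : V} :
    v ∈ up H M ↔ ∀ h ∈ H, dd h v ∈ M := Iff.rfl

theorem up_invariant {H : Subgroup (MulAut V)} {M : Subgroup V}
    (hM : ∀ h ∈ H, ∀ m ∈ M, h m ∈ M) : ∀ g ∈ H, ∀ v ∈ up H M, g v ∈ up H M := by
  intro g hg v hv h hh
  rw [dd_conj]
  exact hM g hg _ (hv _ (mul_mem (mul_mem (inv_mem hg) hh) hg))

theorem isPGroup_two_of_sq {X : Type*} [Group X] {D : Subgroup X} (h : ∀ d ∈ D, d * d = 1) :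
    IsPGroup 2 D := by
  rintro ⟨d, hd⟩
  refine ⟨1, ?_⟩
  apply Subtype.ext
  simp [pow_two, h d hd]

/-- conjugate subgroup -/
abbrev cj {X : Type*} [Group X] (x : X) (A : Subgroup X) : Subgroup X :=
  A.map (MulAut.conj x).toMonoidHom

theorem mem_cj {X : Type*} [Group X] {x y : X} {A : Subgroup X} :
    y ∈ cj x A ↔ ∃ a ∈ A, x * a * x⁻¹ = y := by
  simp [cj, Subgroup.mem_map]

/-- the minimal configuration -/
structure MinCfg (A H : Subgroup (MulAut V)) : Prop where
  h2 : ∀ v : V, v * v = 1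
  hAH : A ≤ H
  hA2 : IsPGroup 2 A
  hab : ∀ D : Subgroup (MulAut V), D ≤ H → IsPGroup 2 D → ∀ x ∈ D, ∀ y ∈ D, x * y = y * x
  hquad : ∀ D : Subgroup (MulAut V), D ≤ H → IsPGroup 2 D → ∀ x ∈ D, ∀ y ∈ D, ∀ v : V,
    y (dd x v) = dd x v
  hns : ¬ Sub2 A H
  hmin : ∀ L : Subgroup (MulAut V), A ≤ L → L ≤ H → Sub2 A L ∨ H ≤ L

variable {A H : Subgroup (MulAut V)}

theorem MinCfg.inv_eq (c : MinCfg A H) (v : V) : v⁻¹ = v :=
  inv_eq_of_mul_eq_one_left (c.h2 v)

theorem MinCfg.sq_one (c : MinCfg A H) {D : Subgroup (MulAut V)} (hD : D ≤ H) (hp : IsPGroup 2 D)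
    {x : MulAut V} (hx : x ∈ D) : x * x = 1 := by
  ext v
  have h := c.hquad D hD hp x hx x hx v
  rw [dd_apply, map_mul, c.inv_eq, mul_comm (x v) v] at h
  have h' := mul_right_cancel h
  rw [MulAut.mul_apply, h', MulAut.one_apply]

theorem MinCfg.gen_or_comm (c : MinCfg A H) {g : MulAut V} (hg : g ∈ H) (hg2 : g * g = 1) :
    (∀ a ∈ A, g * a = a * g) ∨ (∀ R : Subgroup (MulAut V), g ∈ R → A ≤ R → H ≤ R) := by
  have hL : A ⊔ zpowers g ≤ H := sup_le c.hAH (zpowers_le.mpr hg)
  rcases c.hmin _ le_sup_left hL with ⟨D, hAD, hDL, hn, hp⟩ | h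
  · left
    have hz : IsPGroup 2 (zpowers g) := isPGroup_two_of_sq (by
      rintro _ ⟨k, rfl⟩
      show g ^ k * g ^ k = 1
      rw [← (Commute.refl g).mul_zpow, hg2, one_zpow])
    have hp' : IsPGroup 2 (zpowers g ⊔ D : Subgroup _) :=
      hz.to_sup_of_normal_right' hp (le_sup_right.trans hn)
    intro a ha
    exact c.hab _ (sup_le (zpowers_le.mpr hg) (hDL.trans hL)) hp' g
      (mem_sup_left (mem_zpowers g)) a (mem_sup_right (hAD ha))
  · right
    intro R hgR hAR
    exact h.trans (sup_le hAR (zpowers_le.mpr hgR))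

theorem cj_le {X : Type*} [Group X] {x : X} {A H : Subgroup X} (hx : x ∈ H) (hAH : A ≤ H) :
    cj x A ≤ H := by
  intro y hy
  obtain ⟨a, ha, rfl⟩ := mem_cj.mp hy
  exact mul_mem (mul_mem hx (hAH ha)) (inv_mem hx)

theorem MinCfg.exists_conj_gen (c : MinCfg A H) : ∃ x ∈ H, H ≤ A ⊔ cj x A := by
  by_contra hcon
  push Not at hcon
  have h1 : ∀ x ∈ H, ∀ a ∈ A, ∀ a' ∈ A, a * (x * a' * x⁻¹) = (x * a' * x⁻¹) * a := by
    intro x hx a ha a' ha'
    have hB : cj x A ≤ H := cj_le hx c.hAH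
    have hL : A ⊔ cj x A ≤ H := sup_le c.hAH hB
    rcases c.hmin _ le_sup_left hL with ⟨D, hAD, hDL, hn, hp⟩ | h
    · have hp' : IsPGroup 2 (cj x A ⊔ D : Subgroup _) :=
        (c.hA2.map _).to_sup_of_normal_right' hp (le_sup_right.trans hn)
      exact c.hab _ (sup_le hB (hDL.trans hL)) hp' a (mem_sup_right (hAD ha)) _
        (mem_sup_left (mem_cj.mpr ⟨a', ha', rfl⟩))
    · exact absurd h (hcon x hx)
  set S : Set (MulAut V) := {g | ∃ x ∈ H, ∃ a ∈ A, g = x * a * x⁻¹} with hS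
  have hcomm : ∀ g ∈ S, ∀ g' ∈ S, g * g' = g' * g := by
    rintro _ ⟨x, hx, a, ha, rfl⟩ _ ⟨y, hy, a', ha', rfl⟩
    have := h1 (x⁻¹ * y) (mul_mem (inv_mem hx) hy) a ha a' ha'
    calc x * a * x⁻¹ * (y * a' * y⁻¹)
        = x * (a * ((x⁻¹ * y) * a' * (x⁻¹ * y)⁻¹)) * x⁻¹ := by group
      _ = x * (((x⁻¹ * y) * a' * (x⁻¹ * y)⁻¹) * a) * x⁻¹ := by rw [this]
      _ = _ := by group
  have hsq : ∀ g ∈ S, g * g = 1 := by
    rintro _ ⟨x, hx, a, ha, rfl⟩
    have := c.sq_one c.hAH c.hA2 ha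
    calc x * a * x⁻¹ * (x * a * x⁻¹) = x * (a * a) * x⁻¹ := by group
      _ = 1 := by rw [this]; group
  set M := closure S with hM
  have hMS : ∀ m ∈ M, ∀ s ∈ S, m * s = s * m := by
    intro m hm s hs
    have h2 : M ≤ centralizer S := by
      rw [hM, closure_le]
      intro g hg
      exact mem_centralizer_iff.mpr (fun g' hg' => hcomm g' hg' g hg)
    exact ((mem_centralizer_iff.mp (h2 hm)) s hs).symm
  have hMM : ∀ m ∈ M, ∀ m' ∈ M, m * m' = m' * m := by
    intro m hm m' hm'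
    have h2 : M ≤ centralizer {m} := by
      rw [hM, closure_le]
      intro g hg
      refine mem_centralizer_iff.mpr (fun g' hg' => ?_)
      rw [Set.mem_singleton_iff.mp hg']
      exact hMS m hm g hg
    exact (mem_centralizer_iff.mp (h2 hm')) m rfl
  have hMsq : ∀ m ∈ M, m * m = 1 := by
    intro m hm
    induction hm using closure_induction with
    | mem g hg => exact hsq g hg
    | one => simp
    | mul x y hx hy ihx ihy =>
      calc x * y * (x * y) = x * (y * x) * y := by group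
        _ = x * (x * y) * y := by rw [hMM y hy x hx]
        _ = (x * x) * (y * y) := by group
        _ = 1 := by rw [ihx, ihy, one_mul]
    | inv x hx ihx =>
      calc x⁻¹ * x⁻¹ = (x * x)⁻¹ := by group
        _ = 1 := by rw [ihx, inv_one]
  have hMH : M ≤ H := by
    rw [hM, closure_le]
    rintro _ ⟨x, hx, a, ha, rfl⟩
    exact mul_mem (mul_mem hx (c.hAH ha)) (inv_mem hx)
  have hconj : ∀ h ∈ H, ∀ m ∈ M, h * m * h⁻¹ ∈ M := by
    intro h hh m hm
    induction hm using closure_induction with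
    | mem g hg =>
      obtain ⟨x, hx, a, ha, rfl⟩ := hg
      apply Subgroup.subset_closure
      exact ⟨h * x, mul_mem hh hx, a, ha, by group⟩
    | one => simp
    | mul x y hx hy ihx ihy =>
      have : h * (x * y) * h⁻¹ = (h * x * h⁻¹) * (h * y * h⁻¹) := by group
      rw [this]; exact mul_mem ihx ihy
    | inv x hx ihx =>
      have : h * x⁻¹ * h⁻¹ = (h * x * h⁻¹)⁻¹ := by group
      rw [this]; exact inv_mem ihx
  apply c.hns
  refine ⟨M, ?_, hMH, ?_, isPGroup_two_of_sq hMsq⟩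
  · intro a ha
    apply Subgroup.subset_closure
    exact ⟨1, one_mem _, a, ha, by group⟩
  · intro h hh
    rw [mem_normalizer_iff]
    intro m
    refine ⟨hconj h hh m, fun hm => ?_⟩
    have := hconj h⁻¹ (inv_mem hh) _ hm
    convert this using 1
    group

theorem card_map_mul_card_ker_inf {Y Z : Type*} [Group Y] [Group Z] (f : Y →* Z) (B : Subgroup Y) :
    Nat.card (B.map f) * Nat.card ↥(f.ker ⊓ B) = Nat.card B := by
  rw [← relIndex_ker, ← inf_relIndex_right, relIndex, mul_comm,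
    ← Nat.card_congr (subgroupOfEquivOfLe (inf_le_right : f.ker ⊓ B ≤ B)).toEquiv]
  exact card_mul_index _

theorem dd_dd (h2 : ∀ v : V, v * v = 1) (h : MulAut V) (v : V) : dd h (dd h v) = dd (h * h) v := by
  have hinv : ∀ v : V, v⁻¹ = v := fun v => inv_eq_of_mul_eq_one_left (h2 v)
  simp only [dd_apply, MulAut.mul_apply, map_mul, hinv]
  calc h (h v) * h v * (h v * v) = h (h v) * (h v * h v) * v := by
        simp only [mul_assoc]
    _ = h (h v) * v := by rw [h2, mul_one]

theorem MinCfg.pattern [Finite V] (c : MinCfg A H)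
    (best : ∀ B : Subgroup (MulAut V), B ≤ A →
      Nat.card B * Nat.card (fixS B) ≤ Nat.card A * Nat.card (fixS A)) :
    ∃ a ∈ A, ∃ b ∈ H, ∃ u u' : V, u ≠ 1 ∧ a u = u ∧ b u = u * u' ∧ b u' = u' ∧ a u' = u' * u := by
  obtain ⟨x, hx, hgen⟩ := c.exists_conj_gen
  set B := cj x A with hB
  have hBH : B ≤ H := cj_le hx c.hAH
  have hBp : IsPGroup 2 B := c.hA2.map _
  have hcardB : Nat.card B = Nat.card A := card_map_of_injective (MulAut.conj x).injective
  have hinv : ∀ v : V, v⁻¹ = v := c.inv_eq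
  set Z₀ := A ⊓ centralizer (H : Set (MulAut V)) with hZ₀
  have hZ₀B : Z₀ ≤ B := by
    intro z hz
    refine mem_cj.mpr ⟨z, hz.1, ?_⟩
    rw [(mem_centralizer_iff.mp hz.2) x hx]; group
  have hcent : ∀ g : MulAut V, (∀ a ∈ A, g * a = a * g) → (∀ b ∈ B, g * b = b * g) →
      g ∈ centralizer (H : Set (MulAut V)) := by
    intro g h1 h2
    have h3 : H ≤ centralizer {g} := by
      refine hgen.trans (sup_le ?_ ?_)
      · intro a ha
        refine mem_centralizer_iff.mpr (fun g' hg' => ?_)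
        rw [Set.mem_singleton_iff.mp hg']; exact h1 a ha
      · intro b hb
        refine mem_centralizer_iff.mpr (fun g' hg' => ?_)
        rw [Set.mem_singleton_iff.mp hg']; exact h2 b hb
    refine mem_centralizer_iff.mpr (fun h hh => ?_)
    exact ((mem_centralizer_iff.mp (h3 hh)) g rfl).symm
  -- a noncentral element of `A`
  obtain ⟨a, ha, haZ⟩ : ∃ a ∈ A, a ∉ centralizer (H : Set (MulAut V)) := by
    by_contra hcon
    push Not at hcon
    apply c.hns
    refine ⟨A, le_rfl, c.hAH, ?_, c.hA2⟩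
    have h1 : A ≤ centralizer (H : Set (MulAut V)) := hcon
    exact (le_centralizer_iff.mp h1).trans (centralizer_le_normalizer _)
  have haH : a ∈ H := c.hAH ha
  have hgenA : ∀ R : Subgroup (MulAut V), a ∈ R → B ≤ R → H ≤ R := by
    have hg : x⁻¹ * a * x ∈ H := mul_mem (mul_mem (inv_mem hx) haH) hx
    have hg2 : (x⁻¹ * a * x) * (x⁻¹ * a * x) = 1 := by
      have := c.sq_one c.hAH c.hA2 ha
      calc (x⁻¹ * a * x) * (x⁻¹ * a * x) = x⁻¹ * (a * a) * x := by group
        _ = 1 := by rw [this]; group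
    rcases c.gen_or_comm hg hg2 with h | h
    · exfalso
      apply haZ
      apply hcent a (fun a' ha' => c.hab A c.hAH c.hA2 a ha a' ha')
      intro b hb
      obtain ⟨a', ha', rfl⟩ := mem_cj.mp hb
      have := h a' ha'
      calc a * (x * a' * x⁻¹) = x * ((x⁻¹ * a * x) * a') * x⁻¹ := by group
        _ = x * (a' * (x⁻¹ * a * x)) * x⁻¹ := by rw [this]
        _ = _ := by group
    · intro R haR hBR
      have h1 := h (R.comap (MulAut.conj x).toMonoidHom) (by
        rw [mem_comap]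
        show x * (x⁻¹ * a * x) * x⁻¹ ∈ R
        convert haR using 1; group) (by
        intro a' ha'
        rw [mem_comap]
        exact hBR (mem_cj.mpr ⟨a', ha', rfl⟩))
      intro h' hh'
      have h2 := h1 (mul_mem (mul_mem (inv_mem hx) hh') hx)
      rw [mem_comap] at h2
      have h3 : x * (x⁻¹ * h' * x) * x⁻¹ ∈ R := h2
      convert h3 using 1; group
  have hgenB : ∀ b₀ ∈ B, b₀ ∉ Z₀ → ∀ R : Subgroup (MulAut V), b₀ ∈ R → A ≤ R → H ≤ R := by
    intro b₀ hb₀ hb₀Z
    rcases c.gen_or_comm (hBH hb₀) (c.sq_one hBH hBp hb₀) with h | h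
    · exfalso
      apply hb₀Z
      have h1 := hcent b₀ h (fun b hb => c.hab B hBH hBp b₀ hb₀ b hb)
      refine ⟨?_, h1⟩
      obtain ⟨a', ha', h2⟩ := mem_cj.mp hb₀
      have h3 : a' = b₀ := by
        have h4 := (mem_centralizer_iff.mp h1) x hx
        calc a' = x⁻¹ * (x * a' * x⁻¹) * x := by group
          _ = x⁻¹ * (x * b₀) := by rw [h2, h4]; group
          _ = b₀ := by group
      rw [← h3]; exact ha'
    · exact h
  set EA := fixS A with hEA
  set EB := fixS B with hEB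
  set Z := fixS H with hZ
  have hZinv : ∀ h ∈ H, ∀ m ∈ Z, h m ∈ Z := fun h hh m hm => by rw [hm h hh]; exact hm
  -- fixed by `a` and `B` implies fixed by `H`
  have hfixaB : ∀ v ∈ EB, a v = v → v ∈ Z := by
    intro v hv hav
    have h1 : H ≤ stabSub H ⊥ (fun h _ m hm => by rw [mem_bot.mp hm, map_one]; exact one_mem _) v := by
      apply hgenA
      · exact ⟨haH, by rw [mem_bot, dd_eq_one_iff]; exact hav⟩
      · intro b hb
        exact ⟨hBH hb, by rw [mem_bot, dd_eq_one_iff]; exact hv b hb⟩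
    intro h hh
    have := (h1 hh).2
    rwa [mem_bot, dd_eq_one_iff] at this
  set T := EB.map (dd a) with hT
  have hTEA : T ≤ EA := by
    rintro _ ⟨v, _, rfl⟩ a' ha'
    exact c.hquad A c.hAH c.hA2 a ha a' ha' v
  -- counting
  have hcount : Nat.card Z₀ * Nat.card T ≤ Nat.card B := by
    set W := EA ⊔ EB with hW
    have h1 : Nat.card (W.map (dd a)) * Nat.card ↥((dd a).ker ⊓ W) = Nat.card W :=
      card_map_mul_card_ker_inf _ _
    have h2 : Nat.card T ≤ Nat.card (W.map (dd a)) := card_le_of_le (map_mono le_sup_right)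
    have h3 : Nat.card EA ≤ Nat.card ↥((dd a).ker ⊓ W) := by
      apply card_le_of_le
      refine le_inf ?_ le_sup_left
      intro v hv
      rw [MonoidHom.mem_ker, dd_eq_one_iff]
      exact hv a ha
    have h4 : Nat.card W ≤ Nat.card (fixS Z₀) :=
      card_le_of_le (sup_le (fixS_anti inf_le_left) (fixS_anti hZ₀B))
    have h5 := best Z₀ inf_le_left
    have h6 : Nat.card T * Nat.card EA ≤ Nat.card (fixS Z₀) :=
      (Nat.mul_le_mul h2 h3).trans (h1.le.trans h4)
    have h7 : (Nat.card Z₀ * Nat.card T) * Nat.card EA ≤ Nat.card A * Nat.card EA := by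
      calc (Nat.card Z₀ * Nat.card T) * Nat.card EA = Nat.card Z₀ * (Nat.card T * Nat.card EA) := by ring
        _ ≤ Nat.card Z₀ * Nat.card (fixS Z₀) := Nat.mul_le_mul_left _ h6
        _ ≤ _ := h5
    rw [hcardB]
    exact Nat.le_of_mul_le_mul_right h7 Nat.card_pos
  -- existence of a good `u`
  obtain ⟨u, huT, hu⟩ : ∃ u ∈ T, ¬ ∀ h ∈ H, dd h u ∈ Z := by
    by_contra hcon
    push Not at hcon
    apply c.hns
    refine ⟨H, c.hAH, le_rfl, le_normalizer, ?_⟩
    have hi2 := up_invariant hZinv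
    have hi3 := up_invariant hi2
    have hT2 : T ≤ up H Z := fun u hu => hcon u hu
    have hEB3 : EB ≤ up H (up H Z) := by
      intro v hv
      have h1 : H ≤ stabSub H (up H Z) hi2 v := by
        apply hgenA
        · exact ⟨haH, hT2 (mem_map_of_mem _ hv)⟩
        · intro b hb
          refine ⟨hBH hb, ?_⟩
          rw [(dd_eq_one_iff b v).mpr (hv b hb)]; exact one_mem _
      exact fun h hh => (h1 hh).2
    have hEA3 : EA ≤ up H (up H Z) := by
      intro v hv
      have h1 : x v ∈ EB := by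
        intro b hb
        obtain ⟨a', ha', rfl⟩ := mem_cj.mp hb
        simp only [MulAut.mul_apply, MulAut.inv_apply_self]
        rw [hv a' ha']
      have h2 := hi3 x⁻¹ (inv_mem hx) _ (hEB3 h1)
      rwa [MulAut.inv_apply_self] at h2
    have hV4 : ∀ v : V, v ∈ up H (up H (up H Z)) := by
      intro v
      have h1 : H ≤ stabSub H (up H (up H Z)) hi3 v := by
        refine hgen.trans (sup_le ?_ ?_)
        · intro a' ha'
          exact ⟨c.hAH ha', hEA3 (fun a'' ha'' => c.hquad A c.hAH c.hA2 a' ha' a'' ha'' v)⟩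
        · intro b hb
          exact ⟨hBH hb, hEB3 (fun b' hb' => c.hquad B hBH hBp b hb b' hb' v)⟩
      exact fun h hh => (h1 hh).2
    rintro ⟨h, hh⟩
    refine ⟨2, Subtype.ext ?_⟩
    show h ^ 2 ^ 2 = 1
    ext v
    have h1 : dd h (dd h (dd h v)) ∈ Z := hV4 v h hh h hh h hh
    have h2 : dd h (dd h (dd h (dd h v))) = 1 := (dd_eq_one_iff _ _).mpr (h1 h hh)
    rw [dd_dd c.h2, dd_dd c.h2, dd_dd c.h2, dd_eq_one_iff] at h2
    have h3 : h ^ 2 ^ 2 = h * h * (h * h) := by
      norm_num [pow_succ, mul_assoc]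
    rw [h3, h2, MulAut.one_apply]
  have huEA : u ∈ EA := hTEA huT
  -- the homomorphism `λ_u`
  let lam : B →* V :=
    { toFun := fun b => dd a (dd (b : MulAut V) u)
      map_one' := by
        have : dd (1 : MulAut V) u = 1 := by simp [dd_apply]
        show dd a (dd (1 : MulAut V) u) = 1
        rw [this, map_one]
      map_mul' := fun b b' => by
        show dd a (dd ((b : MulAut V) * (b' : MulAut V)) u) = _
        rw [dd_mul, c.hquad B hBH hBp b' b'.2 b b.2 u, map_mul, mul_comm] }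
  have hlam : ∀ b : B, lam b = dd a (dd (b : MulAut V) u) := fun _ => rfl
  have hrange : lam.range ≤ T := by
    rintro _ ⟨b, rfl⟩
    rw [hlam]
    exact mem_map_of_mem _ (fun b' hb' => c.hquad B hBH hBp b b.2 b' hb' u)
  have hker : lam.ker.map B.subtype ≤ Z₀ := by
    rintro _ ⟨b, hb, rfl⟩
    by_contra hbZ
    apply hu
    have h1 : dd (b : MulAut V) u ∈ Z := by
      apply hfixaB _ (fun b' hb' => c.hquad B hBH hBp b b.2 b' hb' u)
      rw [← dd_eq_one_iff]
      exact hb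
    have h2 : H ≤ stabSub H Z hZinv u := by
      apply hgenB b b.2 hbZ
      · exact ⟨hBH b.2, h1⟩
      · intro a' ha'
        refine ⟨c.hAH ha', ?_⟩
        rw [(dd_eq_one_iff a' u).mpr (huEA a' ha')]; exact one_mem _
    exact fun h hh => (h2 hh).2
  have hrT : lam.range = T := by
    apply eq_of_le_of_card_ge hrange
    have h1 : Nat.card lam.ker ≤ Nat.card Z₀ := by
      rw [← card_map_of_injective B.subtype_injective]
      exact card_le_of_le hker
    have h2 : Nat.card lam.ker * Nat.card lam.range = Nat.card B := by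
      rw [← index_ker]; exact card_mul_index _
    have h3 : Nat.card Z₀ * Nat.card T ≤ Nat.card Z₀ * Nat.card lam.range := by
      calc Nat.card Z₀ * Nat.card T ≤ Nat.card B := hcount
        _ = Nat.card lam.ker * Nat.card lam.range := h2.symm
        _ ≤ _ := Nat.mul_le_mul_right _ h1
    exact Nat.le_of_mul_le_mul_left h3 Nat.card_pos
  obtain ⟨b, hb⟩ : u ∈ lam.range := by rw [hrT]; exact huT
  rw [hlam] at hb
  refine ⟨a, ha, b, hBH b.2, u, dd (b : MulAut V) u, ?_, huEA a ha, ?_, ?_, ?_⟩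
  · rintro rfl
    apply hu
    intro h _
    rw [map_one]; exact one_mem _
  · rw [dd_apply, hinv, mul_comm, mul_assoc, c.h2, mul_one]
  · exact c.hquad B hBH hBp b b.2 b b.2 u
  · rw [dd_apply a, hinv] at hb
    calc a (dd (b : MulAut V) u) = a (dd (b : MulAut V) u) * (dd (b : MulAut V) u * dd (b : MulAut V) u) := by
          rw [c.h2, mul_one]
      _ = (a (dd (b : MulAut V) u) * dd (b : MulAut V) u) * dd (b : MulAut V) u := by rw [mul_assoc]
      _ = _ := by rw [hb, mul_comm]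

/-- The general statement: pass to a minimal subgroup. -/
theorem pattern_of_best [Finite V] (h2 : ∀ v : V, v * v = 1) (A P : Subgroup (MulAut V))
    (hAP : A ≤ P) (hA2 : IsPGroup 2 A)
    (hab : ∀ D : Subgroup (MulAut V), D ≤ P → IsPGroup 2 D → ∀ x ∈ D, ∀ y ∈ D, x * y = y * x)
    (hquad : ∀ D : Subgroup (MulAut V), D ≤ P → IsPGroup 2 D → ∀ x ∈ D, ∀ y ∈ D, ∀ v : V,
      y (x v * v⁻¹) = x v * v⁻¹)
    (best : ∀ B : Subgroup (MulAut V), B ≤ A →
      Nat.card B * Nat.card (fixS B) ≤ Nat.card A * Nat.card (fixS A))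
    (hns : ¬ Sub2 A P) :
    ∃ a ∈ A, ∃ b ∈ P, ∃ u u' : V, u ≠ 1 ∧ a u = u ∧ b u = u * u' ∧ b u' = u' ∧ a u' = u' * u := by
  obtain ⟨H, hH, hmin⟩ := (Set.toFinite {H : Subgroup (MulAut V) | A ≤ H ∧ H ≤ P ∧ ¬ Sub2 A H}).exists_minimal
    ⟨P, hAP, le_rfl, hns⟩
  obtain ⟨hAH, hHP, hnsH⟩ := hH
  have c : MinCfg A H :=
    { h2 := h2
      hAH := hAH
      hA2 := hA2
      hab := fun D hD => hab D (hD.trans hHP)
      hquad := fun D hD => hquad D (hD.trans hHP)
      hns := hnsH
      hmin := fun L hAL hLH => by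
        by_cases hs : Sub2 A L
        · exact Or.inl hs
        · exact Or.inr (hmin ⟨hAL, hLH.trans hHP, hs⟩ hLH) }
  obtain ⟨a, ha, b, hb, u, u', h⟩ := c.pattern best
  exact ⟨a, ha, b, hHP hb, u, u', h⟩

/-- The same for a group with a commutativity hypothesis. -/
theorem pattern_of_best' {W : Type*} [Group W] [Finite W] (hc : ∀ v w : W, v * w = w * v)
    (h2 : ∀ v : W, v * v = 1) (A P : Subgroup (MulAut W))
    (hAP : A ≤ P) (hA2 : IsPGroup 2 A)
    (hab : ∀ D : Subgroup (MulAut W), D ≤ P → IsPGroup 2 D → ∀ x ∈ D, ∀ y ∈ D, x * y = y * x)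
    (hquad : ∀ D : Subgroup (MulAut W), D ≤ P → IsPGroup 2 D → ∀ x ∈ D, ∀ y ∈ D, ∀ v : W,
      y (x v * v⁻¹) = x v * v⁻¹)
    (best : ∀ B : Subgroup (MulAut W), B ≤ A →
      Nat.card B * Nat.card (fixS B) ≤ Nat.card A * Nat.card (fixS A))
    (hns : ¬ Sub2 A P) :
    ∃ a ∈ A, ∃ b ∈ P, ∃ u u' : W, u ≠ 1 ∧ a u = u ∧ b u = u * u' ∧ b u' = u' ∧ a u' = u' * u := by
  letI : CommGroup W := { (inferInstance : Group W) with mul_comm := hc }
  exact pattern_of_best h2 A P hAP hA2 hab hquad best hns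

end Cfsg.Agent.Lib.Helper33.QuadOffender
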