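import Cfsg.Agent.Lib.Helper33.QuadOffender
import Cfsg.Agent.Lib.Helper33.S4Pattern
import Cfsg.Agent.Lib.Helper47.PCore
import Cfsg.Agent.Lib.Helper10.Replacement
import Cfsg.Agent.Lib.Helper10.Thompson
import Cfsg.Agent.Lib.Lead.Cores

/-! An offender on a normal elementary abelian 2-subgroup, in a group whose Sylow 2-subgroups have
class at most 2, forces a section `S4` (no solvability needed). -/

set_option autoImplicit false
open Cfsg

namespace Cfsg.Agent.Lib.Helper33.QuadOffender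

open Subgroup
open Cfsg.Agent.Lib.Helper10 (mm)
open scoped commutatorElement

section transport
variable {Y : Type*} [Group Y] (V : Subgroup Y) [V.Normal]

/-- the conjugation action on `V` -/
abbrev psi : Y →* MulAut V := MulAut.conjNormal

theorem psi_apply_eq_iff (y : Y) (v : V) : psi V y v = v ↔ y * v = v * y := by
  rw [Subtype.ext_iff, MulAut.conjNormal_apply, mul_inv_eq_iff_eq_mul]

theorem psi_eq_one_iff (y : Y) : psi V y = 1 ↔ y ∈ centralizer (V : Set Y) := by
  rw [mem_centralizer_iff]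
  constructor
  · intro h v hv
    have := (psi_apply_eq_iff V y ⟨v, hv⟩).mp (by rw [h]; rfl)
    exact this.symm
  · intro h
    apply MulEquiv.ext
    intro v
    rw [MulAut.one_apply, psi_apply_eq_iff]
    exact (h v v.2).symm

theorem fixS_map (B : Subgroup Y) :
    fixS (B.map (psi V)) = (V ⊓ centralizer (B : Set Y)).subgroupOf V := by
  ext v
  rw [mem_fixS, mem_subgroupOf, mem_inf, mem_centralizer_iff]
  constructor
  · intro h
    exact ⟨v.2, fun b hb => (psi_apply_eq_iff V b v).mp (h _ (mem_map_of_mem _ hb))⟩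
  · rintro ⟨_, h⟩ _ ⟨b, hb, rfl⟩
    exact (psi_apply_eq_iff V b v).mpr (h b hb)

theorem card_fixS_map (B : Subgroup Y) :
    Nat.card (fixS (B.map (psi V))) = Nat.card ↥(V ⊓ centralizer (B : Set Y)) := by
  rw [fixS_map]; exact Nat.card_congr (subgroupOfEquivOfLe inf_le_left).toEquiv

theorem best_map [Finite Y] (A : Subgroup Y) (hmax : ∀ B : Subgroup Y, B ≤ A → mm V B ≤ mm V A) :
    ∀ B' : Subgroup (MulAut V), B' ≤ A.map (psi V) →
      Nat.card B' * Nat.card (fixS B') ≤ Nat.card (A.map (psi V)) * Nat.card (fixS (A.map (psi V))) := by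
  intro B' hB'
  set B := A ⊓ B'.comap (psi V) with hB
  have hBmap : B.map (psi V) = B' := by
    ext y
    constructor
    · rintro ⟨b, hb, rfl⟩
      exact hb.2
    · intro hy
      obtain ⟨a, ha, rfl⟩ := hB' hy
      exact ⟨a, ⟨ha, hy⟩, rfl⟩
  have hk : (psi V).ker ⊓ B = (psi V).ker ⊓ A := by
    apply le_antisymm (inf_le_inf_left _ inf_le_left)
    intro y hy
    refine ⟨hy.1, hy.2, ?_⟩
    show psi V y ∈ B'
    rw [MonoidHom.mem_ker.mp hy.1]
    exact one_mem _
  have h1 := card_map_mul_card_ker_inf (psi V) B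
  have h2 := card_map_mul_card_ker_inf (psi V) A
  rw [hk, hBmap] at h1
  have h3 := hmax B inf_le_left
  unfold mm at h3
  rw [← h1, ← h2, ← card_fixS_map, ← card_fixS_map, hBmap] at h3
  have hpos : 0 < Nat.card ↥((psi V).ker ⊓ A) := Nat.card_pos
  have h4 : (Nat.card B' * Nat.card (fixS B')) * Nat.card ↥((psi V).ker ⊓ A) ≤
      (Nat.card (A.map (psi V)) * Nat.card (fixS (A.map (psi V)))) * Nat.card ↥((psi V).ker ⊓ A) := by
    calc _ = Nat.card B' * Nat.card ↥((psi V).ker ⊓ A) * Nat.card (fixS B') := by ring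
      _ ≤ _ := h3
      _ = _ := by ring
  exact Nat.le_of_mul_le_mul_right h4 hpos

end transport

theorem involves_s4_of_offender_class_two {Y : Type*} [Group Y] [Finite Y]
    (V N A : Subgroup Y) [hVn : V.Normal] [hNn : N.Normal] (hV : IsElementaryAbelian 2 V)
    (hUV : pCore 2 Y ≤ centralizer (V : Set Y))
    (hN : N ⊓ centralizer (V : Set Y) ≤ pCore 2 Y) (hAN : A ≤ N) (hA2 : IsPGroup 2 A)
    (hcl : ∀ T : Sylow 2 Y, ⁅⁅(T : Subgroup Y), (T : Subgroup Y)⁆, (T : Subgroup Y)⁆ = ⊥)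
    (hmax : ∀ B : Subgroup Y, B ≤ A → mm V B ≤ mm V A)
    (hne : ¬ A ≤ centralizer (V : Set Y)) :
    Involves (Equiv.Perm (Fin 4)) Y := by
  classical
  have : Fact (Nat.Prime 2) := ⟨Nat.prime_two⟩
  obtain ⟨hVc, hV2'⟩ := Cfsg.Agent.Lib.Helper10.isEA_iff.mp hV
  have hV2 : ∀ x ∈ V, x * x = 1 := fun x hx => by rw [← pow_two]; exact hV2' x hx
  have hVp : IsPGroup 2 V := Cfsg.Agent.Lib.Helper10.IsEA.isPGroup hV
  set U := pCore 2 Y with hUdef
  have hUp : IsPGroup 2 U := Cfsg.Agent.Lib.Lead.pCore_isPGroup 2 Y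
  have hVU : V ≤ U := Cfsg.Agent.Lib.Lead.le_pCore hVn hVp
  have hUT : ∀ T : Sylow 2 Y, U ≤ T := Cfsg.Agent.Lib.Lead.pCore_le_sylow
  -- preimages of 2-subgroups
  have hpre : ∀ D' : Subgroup (MulAut V), IsPGroup 2 D' → IsPGroup 2 ↥(D'.comap (psi V) ⊓ N) := by
    intro D' hD'
    rintro ⟨g, hg⟩
    obtain ⟨k, hk⟩ := hD' ⟨psi V g, hg.1⟩
    have hk' : psi V (g ^ 2 ^ k) = 1 := by
      rw [map_pow]; exact congrArg Subtype.val hk
    have h1 : g ^ 2 ^ k ∈ U := hN ⟨pow_mem hg.2 _, (psi_eq_one_iff V _).mp hk'⟩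
    obtain ⟨j, hj⟩ := hUp ⟨_, h1⟩
    refine ⟨k + j, Subtype.ext ?_⟩
    have hj' : (g ^ 2 ^ k) ^ 2 ^ j = 1 := congrArg Subtype.val hj
    show g ^ 2 ^ (k + j) = 1
    rw [pow_add, pow_mul, hj']
  have hlift : ∀ D' : Subgroup (MulAut V), D' ≤ N.map (psi V) → ∀ x' ∈ D',
      ∃ x ∈ D'.comap (psi V) ⊓ N, psi V x = x' := by
    intro D' hD' x' hx'
    obtain ⟨x, hx, rfl⟩ := hD' hx'
    exact ⟨x, ⟨hx', hx⟩, rfl⟩
  have hTT : ∀ T : Sylow 2 Y, ∀ c ∈ ⁅(T : Subgroup Y), (T : Subgroup Y)⁆, ∀ t ∈ (T : Subgroup Y),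
      t * c = c * t := by
    intro T c hc t ht
    have h1 := commutator_eq_bot_iff_le_centralizer.mp (hcl T)
    exact (mem_centralizer_iff.mp (h1 hc)) t ht
  obtain ⟨a', ha', b', hb', u, u', hu1, hau, hbu, hbu', hau'⟩ :=
    pattern_of_best' (W := V) (fun v w => Subtype.ext (hVc v v.2 w w.2))
      (fun v => Subtype.ext (hV2 v v.2)) (A.map (psi V)) (N.map (psi V)) (map_mono hAN) (hA2.map _)
      (by
        intro D' hD' hp x' hx' y' hy'
        obtain ⟨x, hx, rfl⟩ := hlift D' hD' x' hx'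
        obtain ⟨y, hy, rfl⟩ := hlift D' hD' y' hy'
        obtain ⟨T, hT⟩ := (hpre D' hp).exists_le_sylow
        have h1 : ⁅x, y⁆ ∈ centralizer (V : Set Y) := by
          rw [mem_centralizer_iff]
          intro v hv
          exact hTT T _ (commutator_mem_commutator (hT hx) (hT hy)) v (hUT T (hVU hv))
        have h2 := (psi_eq_one_iff V _).mpr h1
        rw [commutatorElement_def, map_mul, map_mul, map_mul, map_inv, map_inv] at h2
        calc psi V x * psi V y = (psi V x * psi V y * (psi V x)⁻¹ * (psi V y)⁻¹) * (psi V y * psi V x) := by group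
          _ = _ := by rw [h2, one_mul])
      (by
        intro D' hD' hp x' hx' y' hy' v
        obtain ⟨x, hx, rfl⟩ := hlift D' hD' x' hx'
        obtain ⟨y, hy, rfl⟩ := hlift D' hD' y' hy'
        obtain ⟨T, hT⟩ := (hpre D' hp).exists_le_sylow
        rw [psi_apply_eq_iff]
        have h1 : ((psi V x v * v⁻¹ : V) : Y) = ⁅x, (v : Y)⁆ := by
          rw [commutatorElement_def, Subgroup.coe_mul, MulAut.conjNormal_apply, Subgroup.coe_inv]
        rw [h1]
        exact hTT T _ (commutator_mem_commutator (hT hx) (hUT T (hVU v.2))) y (hT hy))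
      (best_map V A hmax)
      (by
        rintro ⟨D', hAD', hD'P, hn, hp⟩
        apply hne
        have h1 : D'.comap (psi V) ⊓ N ≤ U := by
          have h2 : D'.comap (psi V) ⊓ N ≤ pCoreOf 2 N := by
            apply Cfsg.Agent.Lib.Helper47.le_pCoreOf inf_le_right _ (hpre D' hp)
            intro n hnN
            have hconj : ∀ m ∈ N, ∀ g ∈ D'.comap (psi V) ⊓ N, m * g * m⁻¹ ∈ D'.comap (psi V) ⊓ N := by
              intro m hm g hg
              refine ⟨?_, hNn.conj_mem g hg.2 m⟩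
              show psi V (m * g * m⁻¹) ∈ D'
              rw [map_mul, map_mul, map_inv]
              exact (mem_normalizer_iff.mp (hn (mem_map_of_mem _ hm)) _).mp hg.1
            rw [mem_normalizer_iff]
            intro g
            refine ⟨hconj n hnN g, fun hg => ?_⟩
            have := hconj n⁻¹ (inv_mem hnN) _ hg
            convert this using 1
            group
          refine h2.trans ?_
          rw [hUdef, ← Cfsg.Agent.Lib.Helper47.pCoreOf_top]
          apply Cfsg.Agent.Lib.Helper47.pCoreOf_le_pCoreOf_of_normal le_top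
          rw [normalizer_eq_top_iff.mpr hNn]
        intro a ha
        exact hUV (h1 ⟨hAD' (mem_map_of_mem _ ha), hAN ha⟩))
  obtain ⟨a, ha, rfl⟩ := ha'
  obtain ⟨b, hb, rfl⟩ := hb'
  have e1 : a * (u : Y) * a⁻¹ = u := by
    rw [← MulAut.conjNormal_apply]; exact congrArg Subtype.val hau
  have e2 : b * (u : Y) * b⁻¹ = u * u' := by
    rw [← MulAut.conjNormal_apply]; exact congrArg Subtype.val hbu
  have e3 : b * (u' : Y) * b⁻¹ = u' := by
    rw [← MulAut.conjNormal_apply]; exact congrArg Subtype.val hbu'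
  have e4 : a * (u' : Y) * a⁻¹ = u' * u := by
    rw [← MulAut.conjNormal_apply]; exact congrArg Subtype.val hau'
  have hu1' : (u : Y) ≠ 1 := fun h => hu1 (Subtype.ext h)
  apply involves_S4_of_pattern (c₁ := (u : Y)) (c₂ := (u' : Y)) (a := a) (b := b)
    (hV2 u u.2) (hV2 u' u'.2) (hVc u u.2 u' u'.2) hu1'
  · intro h
    rw [h] at e4
    apply hu1'
    simpa using e4.symm
  · intro h
    rw [← h, hV2 u u.2] at e2
    apply hu1'
    have : (u : Y) = b⁻¹ * (b * u * b⁻¹) * b := by group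
    rw [this, e2]; group
  · exact e1
  · rw [e4]; exact hVc u' u'.2 u u.2
  · exact e2
  · exact e3

end Cfsg.Agent.Lib.Helper33.QuadOffender
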