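import Cfsg.Agent.Lib.Helper33.Transvection
import Cfsg.Agent.Lib.Helper33.ThompsonA

set_option autoImplicit false

namespace Cfsg.Agent.Lib.Helper33

open scoped Pointwise
open Cfsg

variable {X : Type*} [Group X]

theorem card_mul_relIndex_eq {H K : Subgroup X} (h : H ≤ K) :
    Nat.card H * H.relIndex K = Nat.card K := by
  have h1 := Subgroup.relIndex_mul_relIndex ⊥ H K bot_le h
  rwa [Subgroup.relIndex_bot_left, Subgroup.relIndex_bot_left] at h1

theorem two_mul_card_le_of_lt [Finite X] {H K : Subgroup X} (h : H < K) :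
    2 * Nat.card H ≤ Nat.card K := by
  have h1 := card_mul_relIndex_eq h.le
  have h2 : H.relIndex K ≠ 1 := fun e => absurd (Subgroup.relIndex_eq_one.1 e) (not_le_of_gt h)
  have h3 : H.relIndex K ≠ 0 := by
    intro e
    rw [e, mul_zero] at h1
    exact absurd h1.symm (Nat.card_pos (α := ↥K)).ne'
  have h4 : 2 ≤ H.relIndex K := by omega
  calc 2 * Nat.card H = Nat.card H * 2 := mul_comm _ _
    _ ≤ Nat.card H * H.relIndex K := Nat.mul_le_mul_left _ h4
    _ = Nat.card K := h1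

/-- an element whose centralizer in the normal abelian subgroup `V` has index at most two acts as
a transvection. -/
theorem exists_tv_of_card_le [Finite X] {V : Subgroup X} (hVn : V.Normal)
    (hVab : ∀ a ∈ V, ∀ b ∈ V, a * b = b * a) (d : X)
    (hcard : Nat.card V ≤ 2 * Nat.card ↥(V ⊓ Subgroup.centralizer ({d} : Set X))) :
    ∃ c, Tv V d c := by
  set F := V ⊓ Subgroup.centralizer ({d} : Set X) with hF
  have hfix : ∀ v : X, v ∈ Subgroup.centralizer ({d} : Set X) ↔ d * v * d⁻¹ = v := by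
    intro v
    rw [Subgroup.mem_centralizer_singleton_iff]
    constructor
    · intro h; rw [← h]; group
    · intro h
      calc v * d = (d * v * d⁻¹) * d := by rw [h]
        _ = d * v := by group
  by_cases hVF : V ≤ F
  · exact ⟨1, V.one_mem, one_mul 1, by group, fun v hv => Or.inl ((hfix v).1 (hVF hv).2)⟩
  have hidx : (F.subgroupOf V).index = 2 := by
    have h1 := card_mul_relIndex_eq (inf_le_left : F ≤ V)
    have h2 : F.relIndex V ≠ 1 := fun e => hVF (Subgroup.relIndex_eq_one.1 e)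
    have hpos : 0 < Nat.card F := Nat.card_pos
    have h3 : F.relIndex V ≤ 2 := by
      by_contra hcon
      push Not at hcon
      have : Nat.card F * 3 ≤ Nat.card F * F.relIndex V := Nat.mul_le_mul_left _ hcon
      rw [h1] at this
      omega
    have h4 : F.relIndex V ≠ 0 := by
      intro e
      rw [e, mul_zero] at h1
      exact absurd h1.symm (Nat.card_pos (α := ↥V)).ne'
    show F.relIndex V = 2
    omega
  obtain ⟨v₀, hv₀V, hv₀F⟩ := SetLike.not_le_iff_exists.1 hVF
  set c := d * v₀ * d⁻¹ * v₀⁻¹ with hc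
  have hcV : c ∈ V := V.mul_mem (hVn.conj_mem v₀ hv₀V d) (V.inv_mem hv₀V)
  have hdv₀ : d * v₀ * d⁻¹ = c * v₀ := by rw [hc]; group
  have hdi : ∀ v ∈ V, d * v * d⁻¹ = v ∨ d * v * d⁻¹ = c * v := by
    intro v hv
    by_cases hvF : v ∈ F
    · exact Or.inl ((hfix v).1 hvF.2)
    right
    have h1 : (⟨v₀, hv₀V⟩ : ↥V)⁻¹ * ⟨v, hv⟩ ∈ F.subgroupOf V := by
      rw [Subgroup.mul_mem_iff_of_index_two hidx, Subgroup.inv_mem_iff]
      constructor
      · intro h; exact absurd (Subgroup.mem_subgroupOf.1 h) hv₀F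
      · intro h; exact absurd (Subgroup.mem_subgroupOf.1 h) hvF
    have h2 : v₀⁻¹ * v ∈ F := Subgroup.mem_subgroupOf.1 h1
    have h3 := (hfix _).1 h2.2
    calc d * v * d⁻¹ = (d * v₀ * d⁻¹) * (d * (v₀⁻¹ * v) * d⁻¹) := by group
      _ = c * v₀ * (v₀⁻¹ * v) := by rw [hdv₀, h3]
      _ = c * v := by group
  have hcc : c * c = 1 := by
    have h1 : (⟨v₀, hv₀V⟩ : ↥V) * ⟨v₀, hv₀V⟩ ∈ F.subgroupOf V :=
      Subgroup.mul_self_mem_of_index_two hidx _
    have h2 : v₀ * v₀ ∈ F := Subgroup.mem_subgroupOf.1 h1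
    have h3 := (hfix _).1 h2.2
    have h4 : d * (v₀ * v₀) * d⁻¹ = (c * c) * (v₀ * v₀) := by
      calc d * (v₀ * v₀) * d⁻¹ = (d * v₀ * d⁻¹) * (d * v₀ * d⁻¹) := by group
        _ = c * (v₀ * c) * v₀ := by rw [hdv₀]; group
        _ = c * (c * v₀) * v₀ := by rw [hVab v₀ hv₀V c hcV]
        _ = (c * c) * (v₀ * v₀) := by group
    rw [h3] at h4
    exact (right_eq_mul.1 h4)
  refine ⟨c, hcV, hcc, ?_, hdi⟩
  rcases hdi c hcV with h | h
  · exact h
  · rw [hcc] at h
    have : c = 1 := by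
      calc c = d⁻¹ * (d * c * d⁻¹) * d := by group
        _ = 1 := by rw [h]; group
    rw [this]; group

/-- a normal subgroup which is a `p`-group modulo the normal subgroup `C` is covered by `C` and a
Sylow `p`-subgroup. -/
theorem le_sup_inf_of_pGroup_mod [Finite X] {p : ℕ} [Fact p.Prime] (S : Sylow p X)
    {C D : Subgroup X} (hCn : C.Normal) (hDn : D.Normal)
    (hp : ∀ u ∈ D, ∃ k : ℕ, u ^ p ^ k ∈ C) : D ≤ C ⊔ ((S : Subgroup X) ⊓ D) := by
  set E := C ⊔ ((S : Subgroup X) ⊓ D) with hE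
  rw [← Subgroup.relIndex_eq_one]
  have h1 : E.relIndex D ∣ ((S : Subgroup X) ⊓ D).relIndex D :=
    Subgroup.relIndex_dvd_of_le_left D le_sup_right
  have h2 : E.relIndex D ∣ C.relIndex D := Subgroup.relIndex_dvd_of_le_left D le_sup_left
  have h3 : ¬ p ∣ ((S : Subgroup X) ⊓ D).relIndex D := (relSyl_inf_normal' S D).2.2
  have h4 : ∃ n : ℕ, C.relIndex D = p ^ n := by
    have hn : (C.subgroupOf D).Normal := inferInstance
    have hq : IsPGroup p (↥D ⧸ C.subgroupOf D) := by
      intro q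
      induction q using QuotientGroup.induction_on with
      | H u =>
        obtain ⟨k, hk⟩ := hp u u.2
        refine ⟨k, ?_⟩
        rw [← QuotientGroup.mk_pow, QuotientGroup.eq_one_iff, Subgroup.mem_subgroupOf]
        simpa using hk
    obtain ⟨n, hn⟩ := IsPGroup.iff_card.1 hq
    exact ⟨n, by rw [← hn, ← Subgroup.index_eq_card]; rfl⟩
  obtain ⟨n, hn⟩ := h4
  rw [hn] at h2
  obtain ⟨j, -, hj⟩ := (Nat.dvd_prime_pow Fact.out).1 h2
  rcases Nat.eq_zero_or_pos j with rfl | hpos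
  · rw [hj, pow_zero]
  · exfalso
    apply h3
    refine dvd_trans ?_ h1
    rw [hj]
    exact dvd_pow_self p hpos.ne'

end Cfsg.Agent.Lib.Helper33
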