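import Cfsg.Agent.Lib.Helper33.OrbitProd
import Cfsg.Agent.Lib.Helper9.WeakClosure4
import Cfsg.Agent.Lib.Helper9.Trace3

set_option autoImplicit false

namespace Cfsg.Agent.Lib.Helper33

open scoped Pointwise
open Cfsg Cfsg.Agent.Lib.Helper9

open scoped IsMulCommutative in
/-- the subgroup of `p`-th powers of a nontrivial finite abelian `p`-group is proper. -/
theorem agemo_lt {X : Type*} [Group X] [Finite X] {p : ℕ} [Fact p.Prime] {V : Subgroup X}
    (hVp : IsPGroup p ↥V) (hVab : ∀ a ∈ V, ∀ b ∈ V, a * b = b * a) (hV : V ≠ ⊥) :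
    agemo p V < V := by
  refine lt_of_le_of_ne (agemo_le V) ?_
  intro hEq
  have : IsMulCommutative ↥V := ⟨⟨fun a b => Subtype.ext (hVab a a.2 b b.2)⟩⟩
  let f : ↥V →* ↥V := powMonoidHom p
  have hle : agemo p V ≤ f.range.map V.subtype := by
    unfold agemo
    rw [Subgroup.closure_le]
    rintro _ ⟨z, hz, rfl⟩
    exact ⟨⟨z, hz⟩ ^ p, ⟨⟨z, hz⟩, rfl⟩, rfl⟩
  have hsurj : Function.Surjective f := by
    intro v
    have h0 : (v : X) ∈ agemo p V := by rw [hEq]; exact v.2
    have h1 : (v : X) ∈ f.range.map V.subtype := hle h0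
    obtain ⟨w, ⟨u, rfl⟩, hw⟩ := h1
    exact ⟨u, Subtype.ext hw⟩
  have hinj : Function.Injective f := Finite.injective_iff_surjective.2 hsurj
  have hnt : Nontrivial ↥V := (Subgroup.nontrivial_iff_ne_bot V).2 hV
  obtain ⟨n, hn0, hn⟩ := hVp.nontrivial_iff_card.1 hnt
  have hdvd : p ∣ Nat.card ↥V := by rw [hn]; exact dvd_pow_self p hn0.ne'
  obtain ⟨v, hv⟩ := exists_prime_orderOf_dvd_card' (G := ↥V) p hdvd
  have h1 : f v = f 1 := by
    show v ^ p = 1 ^ p
    rw [one_pow, ← hv, pow_orderOf_eq_one]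
  have h2 := hinj h1
  rw [h2, orderOf_one] at hv
  exact (Fact.out : p.Prime).one_lt.ne hv

theorem agemo_normal {X : Type*} [Group X] {p : ℕ} {V : Subgroup X} (hVn : V.Normal) :
    (agemo p V).Normal := by
  constructor
  intro n hn g
  have h1 : MulAut.conj g • agemo p V = agemo p V := by
    rw [conj_smul_agemo, Subgroup.Normal.conj_smul_eq_self g V]
  rw [← h1]
  exact ⟨n, hn, rfl⟩

open scoped IsMulCommutative in
/-- the trace of `x` over the cosets of its centralizer is congruent to `x` modulo `p`-th powers,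
under the hyperplane hypothesis for `P`. -/
theorem exists_invariant_mod_agemo {X : Type*} [Group X] [Finite X] {p : ℕ} [Fact p.Prime]
    {V : Subgroup X} (hVn : V.Normal) (hVab : ∀ a ∈ V, ∀ b ∈ V, a * b = b * a)
    (P : Subgroup X) (hPp : IsPGroup p ↥P)
    (hHP : ∀ P₁ : Subgroup ↥P, P₁.Normal → P₁.index = p → ∀ b ∈ V,
      (∀ g ∈ P₁, (g : X) * b * (g : X)⁻¹ = b) → ∀ g ∈ P, g * b * g⁻¹ = b)
    (x : X) (hx : x ∈ V) (hPM : P ≤ Subgroup.centralizer ({x} : Set X))
    (hfix : ∀ c : X, (∀ z ∈ P, c⁻¹ * z * c ∈ Subgroup.centralizer ({x} : Set X)) →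
      c ∈ Subgroup.centralizer ({x} : Set X)) :
    ∃ τ ∈ V, (∀ g : X, g * τ * g⁻¹ = τ) ∧ x * τ⁻¹ ∈ agemo p V := by
  classical
  set M := Subgroup.centralizer ({x} : Set X) with hM
  have := Fintype.ofFinite (X ⧸ M)
  have : IsMulCommutative ↥V := ⟨⟨fun a b => Subtype.ext (hVab a a.2 b b.2)⟩⟩
  let F : X ⧸ M → ↥V := fun q => ⟨q.out * x * q.out⁻¹, hVn.conj_mem x hx _⟩
  have hF : ∀ g : X, (F (g : X ⧸ M) : X) = g * x * g⁻¹ := by
    intro g
    obtain ⟨m, hm⟩ := QuotientGroup.mk_out_eq_mul M g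
    show (Quotient.out (g : X ⧸ M)) * x * (Quotient.out (g : X ⧸ M))⁻¹ = _
    rw [hm]
    have := mem_cent_singleton.1 m.2
    calc g * ↑m * x * (g * ↑m)⁻¹ = g * (↑m * x * (↑m)⁻¹) * g⁻¹ := by group
      _ = g * x * g⁻¹ := by rw [this]
  have hFsmul : ∀ (g : X) (q : X ⧸ M), (F (g • q) : X) = g * (F q : X) * g⁻¹ := by
    intro g q
    induction q using QuotientGroup.induction_on with
    | H c =>
      have : g • (c : X ⧸ M) = ((g * c : X) : X ⧸ M) := rfl
      rw [this, hF, hF]; group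
  set τ : ↥V := ∏ q, F q with hτ
  have hinv : ∀ g : X, g * (τ : X) * g⁻¹ = τ := by
    intro g
    have h1 : (MulAut.conjNormal g : MulAut ↥V) τ = τ := by
      rw [hτ, map_prod]
      rw [← Equiv.prod_comp (MulAction.toPerm g) F]
      refine Finset.prod_congr rfl fun q _ => ?_
      apply Subtype.ext
      rw [MulAut.conjNormal_apply]
      exact (hFsmul g q).symm
    have h2 := congrArg Subtype.val h1
    rwa [MulAut.conjNormal_apply] at h2
  let ψ : ↥P → (↥V →* ↥V) := fun y => (MulAut.conjNormal (y : X) : MulAut ↥V).toMonoidHom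
  have hψ : ∀ (y : ↥P) (l : ↥V), (ψ y l : X) = (y : X) * l * (y : X)⁻¹ := fun _ _ => rfl
  let U : Subgroup ↥V := (agemo p V).subgroupOf V
  let s : Finset (X ⧸ M) := Finset.univ.filter (fun q => ¬ ∀ g : ↥P, g • q = q)
  have hmem := prod_nonfixed_mem (p := p) hPp F ψ
    (by
      intro g q
      apply Subtype.ext
      rw [hψ]
      exact hFsmul (g : X) q)
    (by
      intro P₁ h1 h2 b hb g
      apply Subtype.ext
      rw [hψ]
      refine hHP P₁ h1 h2 b b.2 ?_ g g.2
      intro g' hg'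
      have := congrArg Subtype.val (hb g' hg')
      rwa [hψ] at this)
    U
    (by
      intro b
      show ((b ^ p : ↥V) : X) ∈ agemo p V
      exact Subgroup.subset_closure ⟨b, b.2, rfl⟩)
    s (by intro q; simp [s])
  have hcompl : Finset.univ.filter (fun q : X ⧸ M => ¬ ¬ ∀ g : ↥P, g • q = q) =
      {((1 : X) : X ⧸ M)} := by
    ext q
    rw [Finset.mem_filter, Finset.mem_singleton, not_not]
    constructor
    · rintro ⟨-, h⟩
      induction q using QuotientGroup.induction_on with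
      | H c =>
        have hc : c ∈ M := by
          apply hfix
          intro z hz
          have h1 : (⟨z, hz⟩ : ↥P) • (c : X ⧸ M) = (c : X ⧸ M) := h ⟨z, hz⟩
          have h2 : ((z * c : X) : X ⧸ M) = (c : X ⧸ M) := h1
          have h3 := QuotientGroup.eq.1 h2.symm
          rwa [← mul_assoc] at h3
        rw [QuotientGroup.eq]
        simpa using hc
    · rintro rfl
      refine ⟨Finset.mem_univ _, fun z => ?_⟩
      show (((z : X) * 1 : X) : X ⧸ M) = ((1 : X) : X ⧸ M)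
      rw [QuotientGroup.eq]
      simpa using M.inv_mem (hPM z.2)
  have hsplit : τ = (∏ q ∈ s, F q) * F ((1 : X) : X ⧸ M) := by
    rw [hτ, ← Finset.prod_filter_mul_prod_filter_not Finset.univ
      (fun q : X ⧸ M => ¬ ∀ g : ↥P, g • q = q) F, hcompl, Finset.prod_singleton]
  refine ⟨τ, τ.2, hinv, ?_⟩
  have h1 : (τ : X) = ((∏ q ∈ s, F q : ↥V) : X) * x := by
    rw [hsplit]
    show ((∏ q ∈ s, F q : ↥V) : X) * (F ((1 : X) : X ⧸ M) : X) = _
    rw [hF]; simp
  have h2 : x * (τ : X)⁻¹ = ((∏ q ∈ s, F q : ↥V) : X)⁻¹ := by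
    rw [h1]; group
  rw [h2]
  exact (agemo p V).inv_mem hmem

/-- fixed points of `N(P)` on a normal abelian `p`-subgroup are central, where `P` is a weakly
closed subgroup of `S` satisfying the hyperplane hypothesis. -/
theorem central_of_subgroup_trace {X : Type*} [Group X] [Finite X] {p : ℕ} [Fact p.Prime]
    (S : Sylow p X) (V₀ : Subgroup X) (hV₀p : IsPGroup p ↥V₀)
    (hV₀ab : ∀ a ∈ V₀, ∀ b ∈ V₀, a * b = b * a)
    (P : Subgroup X) (hPS : P ≤ (S : Subgroup X))
    (hweak : ∀ g : X, MulAut.conj g • P ≤ (S : Subgroup X) →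
      g ∈ Subgroup.normalizer (P : Set X))
    (hHP : ∀ P₁ : Subgroup ↥P, P₁.Normal → P₁.index = p → ∀ b ∈ V₀,
      (∀ g ∈ P₁, (g : X) * b * (g : X)⁻¹ = b) → ∀ g ∈ P, g * b * g⁻¹ = b) :
    ∀ (n : ℕ) (V : Subgroup X), Nat.card V = n → V.Normal → V ≤ V₀ → ∀ x ∈ V,
      Subgroup.normalizer (P : Set X) ≤ Subgroup.centralizer ({x} : Set X) →
        ∀ g : X, g * x * g⁻¹ = x := by
  have hPp : IsPGroup p ↥P := isPGroup_of_le S.2 hPS
  have hSN : (S : Subgroup X) ≤ Subgroup.normalizer (P : Set X) := by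
    intro s hs
    apply hweak
    rintro _ ⟨z, hz, rfl⟩
    exact (S : Subgroup X).mul_mem ((S : Subgroup X).mul_mem hs (hPS hz))
      ((S : Subgroup X).inv_mem hs)
  intro n
  induction n using Nat.strong_induction_on with
  | _ n ih =>
  intro V hn hVn hVV₀ x hx hNx g
  by_cases hV0 : V = ⊥
  · rw [hV0, Subgroup.mem_bot] at hx
    rw [hx]; group
  set M := Subgroup.centralizer ({x} : Set X) with hM
  have hSM : (S : Subgroup X) ≤ M := hSN.trans hNx
  have hVab : ∀ a ∈ V, ∀ b ∈ V, a * b = b * a := fun a ha b hb => hV₀ab a (hVV₀ ha) b (hVV₀ hb)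
  obtain ⟨τ, hτV, hτinv, hτY⟩ := exists_invariant_mod_agemo hVn hVab P hPp
    (fun P₁ h1 h2 b hb => hHP P₁ h1 h2 b (hVV₀ hb)) x hx (hPS.trans hSM) (by
      intro c hc
      have h1 : MulAut.conj c⁻¹ • P ≤ M := by
        rintro _ ⟨z, hz, rfl⟩
        have := hc z hz
        simpa using this
      obtain ⟨m, hm, hle⟩ := ((relSyl_top S).mono hSM le_top).exists_conj_le h1
        (isPGroup_conj_smul hPp _)
      rw [conj_smul_smul'] at hle
      have h2 := hNx (hweak _ hle)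
      have h3 := M.mul_mem (M.inv_mem hm) h2
      rw [inv_mul_cancel_left] at h3
      simpa using M.inv_mem h3)
  have hlt := agemo_lt (isPGroup_of_le hV₀p hVV₀) hVab hV0
  have h1 := ih (Nat.card ↥(agemo p V)) (hn ▸ card_lt_of_lt hlt) (agemo p V) rfl
    (agemo_normal hVn) (hlt.le.trans hVV₀) (x * τ⁻¹) hτY (by
      intro m hm
      rw [mem_cent_singleton]
      have h2 := mem_cent_singleton.1 (hNx hm)
      calc m * (x * τ⁻¹) * m⁻¹ = (m * x * m⁻¹) * (m * τ * m⁻¹)⁻¹ := by group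
        _ = x * τ⁻¹ := by rw [h2, hτinv]) g
  calc g * x * g⁻¹ = (g * (x * τ⁻¹) * g⁻¹) * (g * τ * g⁻¹) := by group
    _ = x * τ⁻¹ * τ := by rw [h1, hτinv]
    _ = x := by group

end Cfsg.Agent.Lib.Helper33
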