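import Cfsg.Agent.Lib.Helper33.S4FreeAux
import Cfsg.Agent.Lib.Helper33.SubgroupTrace

set_option autoImplicit false

namespace Cfsg.Agent.Lib.Helper33

open scoped Pointwise
open Cfsg Cfsg.Agent.Lib.Helper9

/-- the hyperplane hypothesis for the subgroup generated by a family of subgroups each of which
has it. -/
theorem hyperplane_sSup {X : Type*} [Group X] [Finite X] {p : ℕ} [Fact p.Prime]
    (V₀ : Subgroup X) (Fam : Set (Subgroup X))
    (hFam : ∀ A' ∈ Fam, ∀ A₀ : Subgroup X, A₀ ≤ A' → Nat.card A' = p * Nat.card A₀ →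
      V₀ ⊓ Subgroup.centralizer (A₀ : Set X) ≤ Subgroup.centralizer (A' : Set X))
    (P : Subgroup X) (hP : P = sSup Fam)
    (P₁ : Subgroup ↥P) (hP₁n : P₁.Normal) (hP₁i : P₁.index = p) (b : X) (hb : b ∈ V₀)
    (hfix : ∀ g ∈ P₁, (g : X) * b * (g : X)⁻¹ = b) : ∀ g ∈ P, g * b * g⁻¹ = b := by
  have hp : p.Prime := Fact.out
  have hinj := Subgroup.subtype_injective P
  obtain ⟨A', hA', hA'P₁⟩ : ∃ A' ∈ Fam, ¬ A' ≤ P₁.map P.subtype := by
    by_contra hcon
    push Not at hcon
    have h1 : P ≤ P₁.map P.subtype := by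
      nth_rewrite 1 [hP]
      exact sSup_le hcon
    have h2 : P₁ = ⊤ := by
      rw [eq_top_iff]
      intro y _
      obtain ⟨z, hz, hzy⟩ := h1 y.2
      rwa [← hinj hzy]
    rw [h2, Subgroup.index_top] at hP₁i
    exact hp.one_lt.ne hP₁i
  have hA'P : A' ≤ P := hP ▸ le_sSup hA'
  set A'' := A'.subgroupOf P with hA''
  have hA''P₁ : ¬ A'' ≤ P₁ := by
    intro h
    apply hA'P₁
    intro a ha
    exact ⟨⟨a, hA'P ha⟩, h (Subgroup.mem_subgroupOf.2 ha), rfl⟩
  have hrel : P₁.relIndex A'' = p := by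
    have h1 : P₁.relIndex A'' ∣ p := hP₁i ▸ Subgroup.relIndex_dvd_index_of_normal P₁ A''
    rcases (Nat.dvd_prime hp).1 h1 with h | h
    · exact absurd (Subgroup.relIndex_eq_one.1 h) hA''P₁
    · exact h
  set A₀ := A' ⊓ P₁.map P.subtype with hA₀
  have hA₀map : (P₁ ⊓ A'').map P.subtype = A₀ := by
    rw [Subgroup.map_inf _ _ _ hinj, hA'', Subgroup.map_subgroupOf_eq_of_le hA'P, inf_comm]
  have hcard : Nat.card A' = p * Nat.card A₀ := by
    have h1 := card_mul_relIndex_eq (inf_le_right : P₁ ⊓ A'' ≤ A'')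
    rw [Subgroup.inf_relIndex_right, hrel, card_subgroupOf_of_le hA'P, ← card_map_subtype,
      hA₀map] at h1
    rw [← h1, mul_comm]
  have hcm : ∀ g : X, g * b * g⁻¹ = b → b * g = g * b := by
    intro g hg
    calc b * g = (g * b * g⁻¹) * g := by rw [hg]
      _ = g * b := by group
  have hbA₀ : b ∈ V₀ ⊓ Subgroup.centralizer (A₀ : Set X) := by
    refine ⟨hb, ?_⟩
    apply Subgroup.mem_centralizer_iff.2
    rintro a ⟨-, z, hz, rfl⟩
    exact (hcm _ (hfix z hz)).symm
  have hbA' := hFam A' hA' A₀ inf_le_left hcard hbA₀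
  set St := (Subgroup.centralizer ({b} : Set X)).subgroupOf P with hSt
  have hP₁St : P₁ ≤ St := by
    intro z hz
    rw [hSt, Subgroup.mem_subgroupOf, mem_cent_singleton]
    exact hfix z hz
  have hA''St : A'' ≤ St := by
    intro z hz
    rw [hSt, Subgroup.mem_subgroupOf, Subgroup.mem_centralizer_singleton_iff]
    exact (Subgroup.mem_centralizer_iff.1 hbA') z (Subgroup.mem_subgroupOf.1 hz)
  have hSttop : St = ⊤ := by
    rw [← Subgroup.index_eq_one]
    have h1 := Subgroup.relIndex_mul_index hP₁St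
    rw [hP₁i] at h1
    have h2 : St.index ∣ p := Dvd.intro_left _ h1
    rcases (Nat.dvd_prime hp).1 h2 with h | h
    · exact h
    · exfalso
      rw [h] at h1
      have h3 : P₁.relIndex St = 1 := by
        have := Nat.eq_of_mul_eq_mul_right hp.pos (h1.trans (one_mul p).symm)
        exact this
      exact hA''P₁ (hA''St.trans (Subgroup.relIndex_eq_one.1 h3))
  intro g hg
  have h1 : (⟨g, hg⟩ : ↥P) ∈ St := by rw [hSttop]; exact Subgroup.mem_top _
  rw [hSt, Subgroup.mem_subgroupOf, mem_cent_singleton] at h1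
  exact h1

/-- the minimal configuration for weak closure of an element in an `S₄`-free group. -/
theorem central_of_S4free {X : Type*} [Group X] [Finite X] [Fact (Nat.Prime 2)] (S : Sylow 2 X)
    (hS4 : ¬ Involves (Equiv.Perm (Fin 4)) X) (x : X) (hxR : x ∈ pCore 2 X)
    (hxS : ∀ s ∈ (S : Subgroup X), s * x * s⁻¹ = x)
    (hmax : ∀ M : Subgroup X, (S : Subgroup X) ≤ M → M ≠ ⊤ → ∀ m ∈ M, m * x * m⁻¹ = x)
    {A : Subgroup X} (hA : MaxAb (S : Subgroup X) A) (hAR : ¬ A ≤ pCore 2 X) :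
    ∀ g : X, g * x * g⁻¹ = x := by
  by_contra hnot
  push Not at hnot
  obtain ⟨g₀, hg₀⟩ := hnot
  set R := pCore 2 X with hR
  have hRn : R.Normal := pCore_normal
  have hRp : IsPGroup 2 ↥R := pCore_isPGroup
  have hRS : R ≤ (S : Subgroup X) := pCore_le_sylow S
  set V₀ := R ⊓ Subgroup.centralizer (R : Set X) with hV₀
  have hV₀n : V₀.Normal := inferInstance
  have hV₀p : IsPGroup 2 ↥V₀ := isPGroup_of_le hRp inf_le_left
  have hV₀ab : ∀ a ∈ V₀, ∀ b ∈ V₀, a * b = b * a := fun a ha b hb =>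
    (Subgroup.mem_centralizer_iff.1 hb.2) a ha.1
  have hcm : ∀ g : X, g * x * g⁻¹ = x → g * x = x * g := by
    intro g hg
    calc g * x = (g * x * g⁻¹) * g := by group
      _ = x * g := by rw [hg]
  have hxV₀ : x ∈ V₀ := ⟨hxR, Subgroup.mem_centralizer_iff.2 fun r hr => hcm r (hxS r (hRS hr))⟩
  -- the Frattini principle
  have hF : ∀ K : Subgroup X, K.Normal → (∀ k ∈ K, k * x * k⁻¹ = x) →
      (S : Subgroup X) ⊓ K ≤ R := by
    intro K hKn hKx
    have hQ := relSyl_inf_normal' S K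
    have hSN : (S : Subgroup X) ≤ Subgroup.normalizer (((S : Subgroup X) ⊓ K : Subgroup X) : Set X) := by
      intro s hs
      rw [mem_normalizer_iff_smul, Subgroup.smul_inf, Subgroup.conj_smul_eq_self_of_mem hs,
        Subgroup.Normal.conj_smul_eq_self s K]
    by_cases htop : Subgroup.normalizer (((S : Subgroup X) ⊓ K : Subgroup X) : Set X) = ⊤
    · exact le_pCore (Subgroup.normalizer_eq_top_iff.1 htop) (isPGroup_of_le S.2 inf_le_left)
    · exfalso
      apply hg₀
      obtain ⟨c, hc, n, hn, rfl⟩ := frattini hQ g₀ (Subgroup.Normal.conj_smul_eq_self g₀ K)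
      calc c * n * x * (c * n)⁻¹ = c * (n * x * n⁻¹) * c⁻¹ := by group
        _ = x := by rw [hmax _ hSN htop n hn, hKx c hc]
  set C := Subgroup.centralizer (V₀ : Set X) with hC
  have hCn : C.Normal := inferInstance
  have hCx : ∀ k ∈ C, k * x * k⁻¹ = x := by
    intro k hk
    rw [← (Subgroup.mem_centralizer_iff.1 hk) x hxV₀]; group
  -- offenders
  let Off : Subgroup X → Prop := fun D => D ≤ (S : Subgroup X) ∧ ¬ D ≤ R ∧
    Nat.card ↥(D ⊓ R) * Nat.card V₀ ≤
      Nat.card D * Nat.card ↥(V₀ ⊓ Subgroup.centralizer (D : Set X))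
  have hAoff : Off A := by
    refine ⟨hA.1, hAR, ?_⟩
    have h1 := Cfsg.Agent.Lib.Helper51.card_sup_mul_card_inf_of_le_normalizer (A ⊓ R) V₀
      (by rw [Subgroup.normalizer_eq_top_iff.2 hV₀n]; exact le_top)
    have h2 : Nat.card ↥((A ⊓ R) ⊔ V₀) ≤ Nat.card A := by
      apply hA.2.2 _ (sup_le (inf_le_left.trans hA.1) (inf_le_left.trans hRS))
      have h3 : (A ⊓ R) ⊔ V₀ ≤ Subgroup.centralizer (((A ⊓ R) ⊔ V₀ : Subgroup X) : Set X) := by
        rw [Cfsg.Agent.Lib.Helper51.centralizer_sup_eq]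
        refine sup_le (le_inf ?_ ?_) (le_inf ?_ ?_)
        · intro a ha
          apply Subgroup.mem_centralizer_iff.2
          intro b hb
          exact hA.2.1 b hb.1 a ha.1
        · intro a ha
          apply Subgroup.mem_centralizer_iff.2
          intro v hv
          exact ((Subgroup.mem_centralizer_iff.1 hv.2) a ha.2).symm
        · intro v hv
          apply Subgroup.mem_centralizer_iff.2
          intro a ha
          exact (Subgroup.mem_centralizer_iff.1 hv.2) a ha.2
        · intro v hv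
          apply Subgroup.mem_centralizer_iff.2
          intro w hw
          exact hV₀ab w hw v hv
      intro a ha b hb
      exact (Subgroup.mem_centralizer_iff.1 (h3 hb)) a ha
    have h4 : Nat.card ↥((A ⊓ R) ⊓ V₀) ≤ Nat.card ↥(V₀ ⊓ Subgroup.centralizer (A : Set X)) := by
      apply Nat.card_mono (Set.toFinite _)
      intro v hv
      refine ⟨hv.2, Subgroup.mem_centralizer_iff.2 fun a ha => hA.2.1 a ha v hv.1.1⟩
    rw [← h1]
    exact Nat.mul_le_mul h2 h4
  obtain ⟨D, hD, hmin⟩ := Set.exists_min_image {D : Subgroup X | Off D}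
    (fun D : Subgroup X => Nat.card D) (Set.toFinite _) ⟨A, hAoff⟩
  obtain ⟨hDS, hDR, hDoff⟩ := hD
  by_cases hT : ∃ D₀ : Subgroup X, D₀ ≤ D ∧ Nat.card D = 2 * Nat.card D₀ ∧ D₀ ≤ R
  · -- the transvection case
    obtain ⟨D₀, hD₀D, hcard, hD₀R⟩ := hT
    have h1 : Nat.card D₀ ≤ Nat.card ↥(D ⊓ R) :=
      Nat.card_mono (Set.toFinite _) (le_inf hD₀D hD₀R)
    have h2 : Nat.card V₀ ≤ 2 * Nat.card ↥(V₀ ⊓ Subgroup.centralizer (D : Set X)) := by
      have hpos : 0 < Nat.card D₀ := Nat.card_pos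
      apply Nat.le_of_mul_le_mul_left _ hpos
      calc Nat.card D₀ * Nat.card V₀ ≤ Nat.card ↥(D ⊓ R) * Nat.card V₀ :=
            Nat.mul_le_mul_right _ h1
        _ ≤ Nat.card D * Nat.card ↥(V₀ ⊓ Subgroup.centralizer (D : Set X)) := hDoff
        _ = Nat.card D₀ * (2 * Nat.card ↥(V₀ ⊓ Subgroup.centralizer (D : Set X))) := by
            rw [hcard]; ring
    obtain ⟨d, hdD, hdR⟩ := SetLike.not_le_iff_exists.1 hDR
    have h3 : Nat.card V₀ ≤ 2 * Nat.card ↥(V₀ ⊓ Subgroup.centralizer ({d} : Set X)) := by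
      refine h2.trans (Nat.mul_le_mul_left _ (Nat.card_mono (Set.toFinite _) ?_))
      exact inf_le_inf_left _ (Subgroup.centralizer_le (Set.singleton_subset_iff.2 hdD))
    obtain ⟨c, hTv⟩ := exists_tv_of_card_le hV₀n hV₀ab d h3
    obtain ⟨D', hD'n, hdD', -, hD'p⟩ := exists_normal_of_transvection hV₀n hV₀ab hS4 hTv
    have hcover := le_sup_inf_of_pGroup_mod S hCn hD'n hD'p
    have hD'x : ∀ k ∈ D', k * x * k⁻¹ = x := by
      have hle : C ⊔ ((S : Subgroup X) ⊓ D') ≤ Subgroup.centralizer ({x} : Set X) := by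
        refine sup_le ?_ ?_
        · intro k hk; exact mem_cent_singleton.2 (hCx k hk)
        · intro k hk; exact mem_cent_singleton.2 (hxS k hk.1)
      intro k hk
      exact mem_cent_singleton.1 (hle (hcover hk))
    exact hdR (hF D' hD'n hD'x ⟨hDS hdD, hdD'⟩)
  · -- the hyperplane case
    push Not at hT
    let Fam : Set (Subgroup X) := {A' | A' ≤ (S : Subgroup X) ∧ ∀ A₀ : Subgroup X, A₀ ≤ A' →
      Nat.card A' = 2 * Nat.card A₀ →
        V₀ ⊓ Subgroup.centralizer (A₀ : Set X) ≤ Subgroup.centralizer (A' : Set X)}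
    have hDFam : D ∈ Fam := by
      refine ⟨hDS, fun D₀ hD₀D hcard => ?_⟩
      by_contra hnle
      have hD₀R := hT D₀ hD₀D hcard
      have hpos : 0 < Nat.card D₀ := Nat.card_pos
      have hlt : Nat.card D₀ < Nat.card D := by omega
      have hnoff : ¬ Off D₀ := fun h => absurd (hmin D₀ h) (not_le.2 hlt)
      have hnoff' : Nat.card D₀ * Nat.card ↥(V₀ ⊓ Subgroup.centralizer (D₀ : Set X)) <
          Nat.card ↥(D₀ ⊓ R) * Nat.card V₀ := by
        by_contra hcon
        exact hnoff ⟨hD₀D.trans hDS, hD₀R, not_lt.1 hcon⟩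
      have hsub : V₀ ⊓ Subgroup.centralizer (D : Set X) <
          V₀ ⊓ Subgroup.centralizer (D₀ : Set X) := by
        refine lt_of_le_of_ne (inf_le_inf_left _ (Subgroup.centralizer_le hD₀D)) ?_
        intro heq
        apply hnle
        rw [← heq]; exact inf_le_right
      have h2 := two_mul_card_le_of_lt hsub
      have h3 : Nat.card ↥(D₀ ⊓ R) ≤ Nat.card ↥(D ⊓ R) :=
        Nat.card_mono (Set.toFinite _) (inf_le_inf_right _ hD₀D)
      have h4 : Nat.card D * Nat.card ↥(V₀ ⊓ Subgroup.centralizer (D : Set X)) <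
          Nat.card D * Nat.card ↥(V₀ ⊓ Subgroup.centralizer (D : Set X)) :=
        calc Nat.card D * Nat.card ↥(V₀ ⊓ Subgroup.centralizer (D : Set X))
            = Nat.card D₀ * (2 * Nat.card ↥(V₀ ⊓ Subgroup.centralizer (D : Set X))) := by
              rw [hcard]; ring
          _ ≤ Nat.card D₀ * Nat.card ↥(V₀ ⊓ Subgroup.centralizer (D₀ : Set X)) :=
              Nat.mul_le_mul_left _ h2
          _ < Nat.card ↥(D₀ ⊓ R) * Nat.card V₀ := hnoff'
          _ ≤ Nat.card ↥(D ⊓ R) * Nat.card V₀ := Nat.mul_le_mul_right _ h3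
          _ ≤ _ := hDoff
      exact lt_irrefl _ h4
    set P := sSup Fam with hP
    have hPS : P ≤ (S : Subgroup X) := sSup_le fun A' hA' => hA'.1
    have hDP : D ≤ P := le_sSup hDFam
    have hweak : ∀ g : X, MulAut.conj g • P ≤ (S : Subgroup X) →
        g ∈ Subgroup.normalizer (P : Set X) := by
      intro g hg
      rw [mem_normalizer_iff_smul]
      apply conj_smul_eq_of_le
      rw [conj_smul_le_iff]
      nth_rewrite 1 [hP]
      apply sSup_le
      intro A' hA'
      rw [← conj_smul_le_iff]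
      apply le_sSup
      refine ⟨(Subgroup.pointwise_smul_le_pointwise_smul_iff.2 (le_sSup hA')).trans hg,
        fun A₀ hA₀ hcard => ?_⟩
      have hB₀ : MulAut.conj g⁻¹ • A₀ ≤ A' := by
        rw [conj_smul_le_iff, inv_inv]; exact hA₀
      have h1 := hA'.2 _ hB₀ (by rw [card_conj_smul] at hcard ⊢; exact hcard)
      have h2 : MulAut.conj g • (V₀ ⊓ Subgroup.centralizer
          ((MulAut.conj g⁻¹ • A₀ : Subgroup X) : Set X)) ≤
          MulAut.conj g • Subgroup.centralizer (A' : Set X) :=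
        Subgroup.pointwise_smul_le_pointwise_smul_iff.2 h1
      rw [Subgroup.smul_inf, Subgroup.Normal.conj_smul_eq_self g V₀, smul_centralizer,
        smul_centralizer, ← Subgroup.coe_pointwise_smul, ← Subgroup.coe_pointwise_smul,
        conj_smul_smul', mul_inv_cancel, conj_one_smul'] at h2
      exact h2
    have hSN : (S : Subgroup X) ≤ Subgroup.normalizer (P : Set X) := by
      intro s hs
      apply hweak
      rintro _ ⟨z, hz, rfl⟩
      exact (S : Subgroup X).mul_mem ((S : Subgroup X).mul_mem hs (hPS hz))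
        ((S : Subgroup X).inv_mem hs)
    have hNtop : Subgroup.normalizer (P : Set X) ≠ ⊤ := by
      intro htop
      exact hDR (hDP.trans (le_pCore (Subgroup.normalizer_eq_top_iff.1 htop)
        (isPGroup_of_le S.2 hPS)))
    have hNx : Subgroup.normalizer (P : Set X) ≤ Subgroup.centralizer ({x} : Set X) :=
      fun m hm => mem_cent_singleton.2 (hmax _ hSN hNtop m hm)
    exact hg₀ (central_of_subgroup_trace S V₀ hV₀p hV₀ab P hPS hweak
      (fun P₁ h1 h2 b hb hfix => hyperplane_sSup V₀ Fam (fun A' hA' => hA'.2) P hP P₁ h1 h2 b hb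
        hfix) _ V₀ rfl hV₀n le_rfl x hxV₀ hNx g₀)

end Cfsg.Agent.Lib.Helper33
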