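import Mathlib

/-!
# Piece A of helper39's S2332 farm: integer arithmetic (helper33)
-/

set_option autoImplicit false

namespace Cfsg.Agent.Lib.Helper33

theorem arith_main (q s c c₂ a ab d N : ℤ) (hq : 2 ≤ q) (hs : q ≤ s)
    (hN : (q - 1) * N = q ^ 2 * s - 1) (hc : 0 ≤ c) (ha : 0 ≤ a)
    (hd : d = c + q * s - 1) (hc₂ : c₂ = c - s + 1) (h1 : a ≤ ab) (h2 : ab ≤ c₂)
    (hE : N * q ^ 2 * c ^ 2
      = d * (q ^ 2 * c + (N - 1) * (q * c₂ + (q ^ 2 - 1) * a - (q - 1) * ab))) :
    q * (q * s - 1) ≤ (q - 1) * d := by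
  obtain ⟨r, hr⟩ : ∃ r : ℤ, r = q * s - 1 := ⟨_, rfl⟩
  obtain ⟨Z, hZ⟩ : ∃ Z : ℤ, Z = q * c₂ + (q ^ 2 - 1) * a - (q - 1) * ab := ⟨_, rfl⟩
  have hqs : 4 ≤ q * s := by nlinarith
  have hrpos : 0 < r := by rw [hr]; linarith
  have hqpos : 0 < q := by linarith
  have hd' : d = c + r := by rw [hd, hr]; ring
  have hN1 : (q - 1) * N = q * r + q - 1 := by rw [hN, hr]; ring
  have hN2 : (q - 1) * (N - 1) = q * r := by
    have : (q - 1) * (N - 1) = (q - 1) * N - (q - 1) := by ring
    rw [this, hN1]; ring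
  rw [← hZ] at hE
  -- multiply by (q-1)
  have hE1 : ((q - 1) * N) * q ^ 2 * c ^ 2
      = d * (q ^ 2 * c * (q - 1) + ((q - 1) * (N - 1)) * Z) := by
    linear_combination (q - 1) * hE
  rw [hN1, hN2, hd'] at hE1
  have hstar : Z * (c + r) = q * c * (q * c - q + 1) := by
    have h3 : (q * r) * (Z * (c + r)) = (q * r) * (q * c * (q * c - q + 1)) := by
      linear_combination -hE1
    exact mul_left_cancel₀ (by positivity) h3
  have hgoal : r ≤ (q - 1) * c → q * (q * s - 1) ≤ (q - 1) * d := by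
    intro h
    rw [← hr, hd']
    nlinarith
  apply hgoal
  by_contra hcon
  rw [not_le] at hcon
  have hcon' : (q - 1) * c ≤ r - 1 := by linarith
  have hcr : 0 < c + r := by linarith
  rcases lt_or_ge a c₂ with hlt | hge
  · -- a ≤ c₂ - 1
    have ha1 : a ≤ c₂ - 1 := by linarith
    have hZ1 : Z ≤ q ^ 2 * (c - s) + q := by
      have e1 : (q - 1) * a ≤ (q - 1) * ab := mul_le_mul_of_nonneg_left h1 (by linarith)
      have e2 : q * (q - 1) * a ≤ q * (q - 1) * (c₂ - 1) :=
        mul_le_mul_of_nonneg_left ha1 (by nlinarith)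
      rw [hZ]
      rw [hc₂] at e2 ⊢
      nlinarith
    have h4 : Z * (c + r) ≤ (q ^ 2 * (c - s) + q) * (c + r) :=
      mul_le_mul_of_nonneg_right hZ1 hcr.le
    rw [hstar] at h4
    have h5 : q * (c * (q * c - q + 1)) ≤ q * ((q * (c - s) + 1) * (c + r)) := by
      linarith [h4]
    have h6 : c * (q * c - q + 1) ≤ (q * (c - s) + 1) * (c + r) := le_of_mul_le_mul_left h5 hqpos
    have hqs' : q * s = r + 1 := by rw [hr]; ring
    have h7 : r ^ 2 ≤ (r + 1) * ((q - 1) * c) := by
      have e : (q * (c - s) + 1) * (c + r) = q * c ^ 2 + q * c * r - (q * s) * c - (q * s) * r + c + r := by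
        ring
      rw [e, hqs'] at h6
      nlinarith
    have h8 : (r + 1) * ((q - 1) * c) ≤ (r + 1) * (r - 1) :=
      mul_le_mul_of_nonneg_left hcon' (by linarith)
    nlinarith
  · have hac : a = c₂ := le_antisymm (h1.trans h2) hge
    have habc : ab = c₂ := le_antisymm h2 (hac ▸ h1)
    have hZ2 : Z = q ^ 2 * c₂ := by rw [hZ, hac, habc]; ring
    rw [hZ2, hc₂, hr] at hstar
    have h9 : q * (c * (q - 1) * (q * s + 1)) = q * (q * (s - 1) * (q * s - 1)) := by
      linear_combination hstar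
    have h10 : c * (q - 1) * (q * s + 1) = q * (s - 1) * (q * s - 1) :=
      mul_left_cancel₀ hqpos.ne' h9
    have h11 : (q * s + 1) ∣ 2 * (q + 1) := by
      refine ⟨c * (q - 1) - (q * s - q - 2), ?_⟩
      linear_combination -h10
    have h12 : q * s + 1 ≤ 2 * (q + 1) := Int.le_of_dvd (by linarith) h11
    have h13 : s ≤ 2 := by
      by_contra h
      rw [not_le] at h
      have : q * 3 ≤ q * s := mul_le_mul_of_nonneg_left (by linarith) hqpos.le
      linarith
    have hs2 : s = 2 := by linarith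
    have hq2 : q = 2 := by linarith
    rw [hs2, hq2] at h11
    norm_num at h11

end Cfsg.Agent.Lib.Helper33
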