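import Cfsg.Agent.Lib.Helper39.SLmin.Block
import Cfsg.Agent.Lib.Helper39.GL2Char.SBorel

/-!
# Piece B1 of helper39's S2332 farm: Bruhat sum in `SL₂(q)` (helper33)
-/

set_option autoImplicit false

namespace Cfsg.Agent.Lib.Helper33

open Matrix Cfsg Cfsg.Agent.Lib.Helper39 Cfsg.Agent.Lib.Helper39.SLmin

section
variable {F : Type*} [Field F]

theorem b1_xU_mul (t u : F) : xU t * xU u = xU (t + u) := by
  apply sl_ext
  rw [Matrix.SpecialLinearGroup.coe_mul, xU_coe, xU_coe, xU_coe]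
  ext i j
  fin_cases i <;> fin_cases j <;> simp [Matrix.mul_apply, Fin.sum_univ_two, add_comm]

theorem b1_xU_zero : xU (0 : F) = 1 := by
  apply sl_ext
  rw [xU_coe, Matrix.SpecialLinearGroup.coe_one]
  ext i j
  fin_cases i <;> fin_cases j <;> simp

theorem b1_xL_zero : xL (0 : F) = 1 := by
  apply sl_ext
  rw [xL_coe, Matrix.SpecialLinearGroup.coe_one]
  ext i j
  fin_cases i <;> fin_cases j <;> simp

theorem b1_xU_inv (t : F) : (xU t)⁻¹ = xU (-t) := by
  apply inv_eq_of_mul_eq_one_right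
  rw [b1_xU_mul, add_neg_cancel, b1_xU_zero]

theorem b1_xU_injective : Function.Injective (xU : F → Matrix.SpecialLinearGroup (Fin 2) F) := by
  intro t u h
  have h1 := sl_coe_congr h
  rw [xU_coe, xU_coe] at h1
  have := congrFun (congrFun h1 0) 1
  simpa using this

/-- the hom `t ↦ xU t`. -/
def b1Hom : Multiplicative F →* Matrix.SpecialLinearGroup (Fin 2) F where
  toFun t := xU (Multiplicative.toAdd t)
  map_one' := b1_xU_zero
  map_mul' _ _ := (b1_xU_mul _ _).symm

/-- conjugating an element with nonzero lower left entry into `xU t * xL s`. -/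
theorem b1_conj (g : Matrix.SpecialLinearGroup (Fin 2) F) (s : F) (hs : s ≠ 0)
    (h10 : (g : Matrix (Fin 2) (Fin 2) F) 1 0 = s) :
    xU (((g : Matrix (Fin 2) (Fin 2) F) 1 1 - 1) / s) * g
        * (xU (((g : Matrix (Fin 2) (Fin 2) F) 1 1 - 1) / s))⁻¹
      = xU (((g : Matrix (Fin 2) (Fin 2) F) 0 0 + (g : Matrix (Fin 2) (Fin 2) F) 1 1 - 2) / s)
        * xL s := by
  have hd := SL2_det g
  rw [h10] at hd
  rw [b1_xU_inv]
  apply sl_ext
  have hg : (g : Matrix (Fin 2) (Fin 2) F)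
      = !![(g : Matrix (Fin 2) (Fin 2) F) 0 0, (g : Matrix (Fin 2) (Fin 2) F) 0 1; s,
        (g : Matrix (Fin 2) (Fin 2) F) 1 1] := by
    rw [← h10]; exact Matrix.eta_fin_two _
  rw [Matrix.SpecialLinearGroup.coe_mul, Matrix.SpecialLinearGroup.coe_mul,
    Matrix.SpecialLinearGroup.coe_mul, xU_coe, xU_coe, xU_coe, xL_coe]
  generalize (g : Matrix (Fin 2) (Fin 2) F) 0 0 = A at *
  generalize (g : Matrix (Fin 2) (Fin 2) F) 0 1 = B at *
  generalize (g : Matrix (Fin 2) (Fin 2) F) 1 1 = D at *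
  rw [hg, Matrix.mul_fin_two, Matrix.mul_fin_two, Matrix.mul_fin_two]
  ext i j
  fin_cases i <;> fin_cases j
  · simp
    field_simp
    ring
  · simp
    field_simp
    linear_combination (-1) * hd
  · simp
  · simp
    field_simp
    ring

end

section fin
variable {F : Type*} [Field F] [Fintype F] [DecidableEq F]

theorem b1_sum_units (f : F → ℂ) : ∑ t : F, f t = f 0 + ∑ s : Fˣ, f (s : F) := by
  rw [← Finset.add_sum_erase _ _ (Finset.mem_univ (0 : F))]
  congr 1
  symm
  refine Finset.sum_bij (fun (s : Fˣ) _ => (s : F)) ?_ ?_ ?_ ?_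
  · intro s _
    exact Finset.mem_erase.2 ⟨s.ne_zero, Finset.mem_univ _⟩
  · intro s _ s' _ h
    exact Units.ext h
  · intro b hb
    exact ⟨Units.mk0 b (Finset.ne_of_mem_erase hb), Finset.mem_univ _, rfl⟩
  · intro s _
    rfl

theorem sl2_bruhat_sum {θ : Matrix.SpecialLinearGroup (Fin 2) F → ℂ}
    (hθ : IsCharacter (Matrix.SpecialLinearGroup (Fin 2) F) θ) :
    ∃ a ab c₂ : ℕ, a ≤ ab ∧ ab ≤ c₂ ∧ ∑ t : F, θ (xU t) = (Fintype.card F : ℂ) * c₂ ∧
      ∑ t : F, ∑ t' : F, θ (xU t * xL t')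
        = (Fintype.card F : ℂ) * c₂ + ((Fintype.card F : ℂ) ^ 2 - 1) * a
          - ((Fintype.card F : ℂ) - 1) * ab := by
  classical
  obtain ⟨fix, hanti, hfix⟩ := exists_fix hθ
  have hcl : IsClassFunction _ θ := Helper15.char_cf hθ
  have hUB : (b1Hom (F := F)).range ≤ BS F := by
    rintro _ ⟨t, rfl⟩
    rw [mem_BS_iff]
    show (xU (Multiplicative.toAdd t) : Matrix (Fin 2) (Fin 2) F) 1 0 = 0
    rw [xU_coe]
    rfl
  have hq0 : (Fintype.card F : ℂ) ≠ 0 := by exact_mod_cast Fintype.card_ne_zero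
  have hU : ∑ t : F, θ (xU t) = (Fintype.card F : ℂ) * (fix (b1Hom (F := F)).range : ℂ) := by
    have h := hfix (b1Hom (F := F)).range
    let e : F ≃ (b1Hom (F := F)).range :=
      Equiv.ofBijective (fun t => ⟨xU t, ⟨Multiplicative.ofAdd t, rfl⟩⟩)
        ⟨fun t u h => b1_xU_injective (congrArg Subtype.val h), by
          rintro ⟨_, ⟨t, rfl⟩⟩
          exact ⟨Multiplicative.toAdd t, rfl⟩⟩
    rw [← Fintype.card_congr e, ← Equiv.sum_comp e] at h
    rw [mul_comm]
    exact h.symm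
  have hG : ∑ g, θ g = (fix ⊤ : ℂ) * (((Fintype.card F : ℂ) + 1)
      * ((Fintype.card F : ℂ) * ((Fintype.card F : ℂ) - 1))) := by
    have h := hfix ⊤
    rw [Fintype.card_congr (Subgroup.topEquiv (G := Matrix.SpecialLinearGroup (Fin 2) F)).toEquiv,
      ← Nat.card_eq_fintype_card, card_SL2] at h
    rw [h, ← Equiv.sum_comp (Subgroup.topEquiv (G := Matrix.SpecialLinearGroup (Fin 2) F)).toEquiv]
    rfl
  have hB : ∑ b : BS F, θ b = (fix (BS F) : ℂ)
      * ((Fintype.card F : ℂ) * ((Fintype.card F : ℂ) - 1)) := by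
    have h := hfix (BS F)
    rw [← Nat.card_eq_fintype_card, card_BS] at h
    exact h.symm
  -- the big cell
  have hcell : ∀ (c : F) (s : Fˣ), ∑ y : F, θ (rS (some c) * bS s y)
      = ∑ t : F, θ (xU t * xL (s : F)) := by
    intro c s
    have hs : (s : F) ≠ 0 := s.ne_zero
    let e : F ≃ F :=
      { toFun := fun y => (c * s + y - 2) / s
        invFun := fun t => t * s - c * s + 2
        left_inv := by intro y; field_simp; ring
        right_inv := by intro t; field_simp; ring }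
    conv_rhs => rw [← Equiv.sum_comp e]
    refine Finset.sum_congr rfl fun y _ => ?_
    have h00 : ((rS (some c) * bS s y : SL2 F) : Matrix (Fin 2) (Fin 2) F) 0 0 = c * s := by
      rw [Matrix.SpecialLinearGroup.coe_mul, rS_some_coe, bS_coe, Matrix.mul_fin_two]
      simp
    have h10 : ((rS (some c) * bS s y : SL2 F) : Matrix (Fin 2) (Fin 2) F) 1 0 = s := by
      rw [Matrix.SpecialLinearGroup.coe_mul, rS_some_coe, bS_coe, Matrix.mul_fin_two]
      simp
    have h11 : ((rS (some c) * bS s y : SL2 F) : Matrix (Fin 2) (Fin 2) F) 1 1 = y := by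
      rw [Matrix.SpecialLinearGroup.coe_mul, rS_some_coe, bS_coe, Matrix.mul_fin_two]
      simp
    have := b1_conj (rS (some c) * bS s y) s hs h10
    rw [h00, h11] at this
    show _ = θ (xU ((c * s + y - 2) / s) * xL (s : F))
    rw [← this, hcl]
  have hsplit : ∑ g, θ g = ∑ b : BS F, θ b
      + (Fintype.card F : ℂ) * ∑ s : Fˣ, ∑ t : F, θ (xU t * xL (s : F)) := by
    rw [← Function.Bijective.sum_comp (rS_bijective (F := F)) θ, Fintype.sum_prod_type,
      Fintype.sum_option]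
    congr 1
    · simp [rS]
    · have : ∀ c : F, ∑ b : BS F, θ (rS (some c) * (b : SL2 F))
          = ∑ s : Fˣ, ∑ t : F, θ (xU t * xL (s : F)) := by
        intro c
        rw [sum_BS]
        refine Finset.sum_congr rfl fun s _ => ?_
        exact hcell c s
      rw [Finset.sum_congr rfl fun c _ => this c, Finset.sum_const, Finset.card_univ, nsmul_eq_mul]
  refine ⟨fix ⊤, fix (BS F), fix (b1Hom (F := F)).range, hanti _ _ le_top, hanti _ _ hUB, hU, ?_⟩
  rw [Finset.sum_comm, b1_sum_units]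
  simp only [b1_xL_zero, mul_one]
  rw [hU]
  rw [hG, hB] at hsplit
  have hX : ∑ s : Fˣ, ∑ t : F, θ (xU t * xL (s : F))
      = ((Fintype.card F : ℂ) ^ 2 - 1) * (fix ⊤ : ℂ) - ((Fintype.card F : ℂ) - 1) * (fix (BS F) : ℂ) := by
    apply mul_left_cancel₀ hq0
    linear_combination -hsplit
  rw [hX]
  ring

end fin

end Cfsg.Agent.Lib.Helper33
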