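import Cfsg.Agent.Lib.Helper39.SLmin.Block
import Cfsg.Agent.Lib.Helper3.Rep

/-!
# Piece B2 of helper39's S2332 farm: deflation to the `SL₂` block (helper33)
-/

set_option autoImplicit false
set_option linter.unusedSectionVars false

namespace Cfsg.Agent.Lib.Helper33

open Matrix Cfsg Cfsg.Agent.Lib.Helper39.SLmin

section abstract

variable {G Γ H : Type*} [Group G] [Group Γ] [Fintype Γ] [Group H] {V : Type*} [AddCommGroup V]
  [Module ℂ V] [FiniteDimensional ℂ V]

theorem b2_trace_restrict {W : Submodule ℂ V} {P f : V →ₗ[ℂ] V} (hP : LinearMap.IsProj W P)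
    (hf : ∀ y ∈ W, f y ∈ W) :
    LinearMap.trace ℂ W (f.restrict hf) = LinearMap.trace ℂ V (f ∘ₗ P) := by
  have h1 : f ∘ₗ P = (f ∘ₗ W.subtype) ∘ₗ hP.codRestrict := by
    ext y
    simp [LinearMap.IsProj.codRestrict_apply]
  have h2 : f.restrict hf = hP.codRestrict ∘ₗ (f ∘ₗ W.subtype) := by
    ext y
    simp only [LinearMap.coe_restrict_apply, LinearMap.comp_apply, Submodule.subtype_apply,
      LinearMap.IsProj.codRestrict_apply]
    exact (hP.map_id _ (hf _ y.2)).symm
  rw [h1, h2, LinearMap.trace_comp_comm']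

/-- the representation of `H` on the fixed space of `Γ`. -/
noncomputable def b2Rep (ρ : Representation ℂ G V) (j : Γ →* G) (ε : H →* G)
    (hn : ∀ (h : H) (γ : Γ), ∃ γ', (ε h)⁻¹ * j γ * ε h = j γ') :
    Representation ℂ H (eig ρ j 1) where
  toFun h := (ρ (ε h)).restrict (fun _ hy => map_eig ρ j 1 (ε h)
    (fun γ => (hn h γ).imp fun _ h' => ⟨h', rfl⟩) hy)
  map_one' := by
    ext y
    simp
  map_mul' a b := by
    ext y
    simp

theorem b2_isCharacter (ρ : Representation ℂ G V) (j : Γ →* G) (ε : H →* G)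
    (hn : ∀ (h : H) (γ : Γ), ∃ γ', (ε h)⁻¹ * j γ * ε h = j γ') :
    IsCharacter H (fun h => (Fintype.card Γ : ℂ)⁻¹ * ∑ γ : Γ, ρ.character (ε h * j γ)) := by
  have := Helper3.isCharacter_of_rep (b2Rep ρ j ε hn)
  convert this using 1
  funext h
  have h1 := trace_comp_prj ρ j 1 (ε h)
  simp only [MonoidHom.one_apply, one_mul] at h1
  rw [← h1]
  exact (b2_trace_restrict (isProj_prj ρ j 1) (fun _ hy => map_eig ρ j 1 (ε h)
    (fun γ => (hn h γ).imp fun _ h' => ⟨h', rfl⟩) hy)).symm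

end abstract

section conc

variable {F : Type*} [Field F] {κ : Type*} [Fintype κ] [DecidableEq κ]

/-- `X ↦ PP 1 X`. -/
def b2J : Multiplicative (Matrix (Fin 2) κ F) →* Matrix.SpecialLinearGroup (Fin 2 ⊕ κ) F where
  toFun X := PP 1 (Multiplicative.toAdd X)
  map_one' := PP_one
  map_mul' X Y := by
    rw [PP_mul, mul_one, Matrix.SpecialLinearGroup.coe_one, Matrix.one_mul, toAdd_mul, add_comm]

/-- `S ↦ PP S 0`. -/
def b2E : Matrix.SpecialLinearGroup (Fin 2) F →* Matrix.SpecialLinearGroup (Fin 2 ⊕ κ) F where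
  toFun S := PP S 0
  map_one' := PP_one
  map_mul' S T := by
    rw [PP_mul, Matrix.mul_zero, add_zero]

theorem b2_E_mul_J (S : Matrix.SpecialLinearGroup (Fin 2) F)
    (X : Multiplicative (Matrix (Fin 2) κ F)) :
    b2E S * b2J X = PP S ((S : Matrix (Fin 2) (Fin 2) F) * Multiplicative.toAdd X) := by
  show PP S 0 * PP 1 _ = _
  rw [PP_mul, mul_one, add_zero]

theorem b2_J_mul_E (S : Matrix.SpecialLinearGroup (Fin 2) F)
    (X : Multiplicative (Matrix (Fin 2) κ F)) :
    b2J X * b2E S = PP S (Multiplicative.toAdd X) := by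
  show PP 1 _ * PP S 0 = _
  rw [PP_mul, one_mul, Matrix.mul_zero, zero_add]

theorem b2_mul_inv_mul (S : Matrix.SpecialLinearGroup (Fin 2) F) (X : Matrix (Fin 2) κ F) :
    (S : Matrix (Fin 2) (Fin 2) F) * (((S⁻¹ : Matrix.SpecialLinearGroup (Fin 2) F) :
      Matrix (Fin 2) (Fin 2) F) * X) = X := by
  rw [← Matrix.mul_assoc, ← Matrix.SpecialLinearGroup.coe_mul, mul_inv_cancel,
    Matrix.SpecialLinearGroup.coe_one, Matrix.one_mul]

theorem b2_inv_mul_mul (S : Matrix.SpecialLinearGroup (Fin 2) F) (X : Matrix (Fin 2) κ F) :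
    ((S⁻¹ : Matrix.SpecialLinearGroup (Fin 2) F) : Matrix (Fin 2) (Fin 2) F)
      * ((S : Matrix (Fin 2) (Fin 2) F) * X) = X := by
  rw [← Matrix.mul_assoc, ← Matrix.SpecialLinearGroup.coe_mul, inv_mul_cancel,
    Matrix.SpecialLinearGroup.coe_one, Matrix.one_mul]

theorem b2_norm (S : Matrix.SpecialLinearGroup (Fin 2) F)
    (X : Multiplicative (Matrix (Fin 2) κ F)) :
    ∃ Y, (b2E S)⁻¹ * b2J X * b2E S = (b2J Y : Matrix.SpecialLinearGroup (Fin 2 ⊕ κ) F) := by
  refine ⟨Multiplicative.ofAdd (((S⁻¹ : Matrix.SpecialLinearGroup (Fin 2) F) :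
      Matrix (Fin 2) (Fin 2) F) * Multiplicative.toAdd X), ?_⟩
  rw [mul_assoc, inv_mul_eq_iff_eq_mul, b2_J_mul_E, b2_E_mul_J, toAdd_ofAdd, b2_mul_inv_mul]

end conc

theorem isCharacter_sum_PP {F : Type*} [Field F] [Fintype F] [DecidableEq F] {κ : Type*}
    [Fintype κ] [DecidableEq κ] {χ : Matrix.SpecialLinearGroup (Fin 2 ⊕ κ) F → ℂ}
    (hχ : IsCharacter (Matrix.SpecialLinearGroup (Fin 2 ⊕ κ) F) χ) :
    IsCharacter (Matrix.SpecialLinearGroup (Fin 2) F)
      (fun S => ((Fintype.card F : ℂ) ^ (2 * Fintype.card κ))⁻¹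
        * ∑ X : Matrix (Fin 2) κ F, χ (PP S X)) := by
  obtain ⟨k, ρ, rfl⟩ := hχ
  have := b2_isCharacter ρ (b2J (F := F) (κ := κ)) b2E b2_norm
  convert this using 1
  funext S
  congr 1
  · congr 1
    have : Fintype.card (Multiplicative (Matrix (Fin 2) κ F))
        = Fintype.card F ^ (2 * Fintype.card κ) := by
      rw [Fintype.card_multiplicative]
      show Fintype.card (Fin 2 → κ → F) = _
      rw [Fintype.card_fun, Fintype.card_fun, Fintype.card_fin, ← pow_mul, mul_comm]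
    rw [this]
    push_cast
    rfl
  · simp_rw [b2_E_mul_J]
    let e : Multiplicative (Matrix (Fin 2) κ F) ≃ Matrix (Fin 2) κ F :=
      { toFun := fun X => (S : Matrix (Fin 2) (Fin 2) F) * Multiplicative.toAdd X
        invFun := fun X => Multiplicative.ofAdd (((S⁻¹ : Matrix.SpecialLinearGroup (Fin 2) F) :
          Matrix (Fin 2) (Fin 2) F) * X)
        left_inv := fun X => by
          simp only
          rw [b2_inv_mul_mul]
          rfl
        right_inv := fun X => by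
          simp only [toAdd_ofAdd]
          rw [b2_mul_inv_mul] }
    rw [← Equiv.sum_comp e]
    rfl

end Cfsg.Agent.Lib.Helper33
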