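import Cfsg.Agent.Lib.Helper78.ClassAlg

/-!
# Piece E of helper39's S2332 farm: an identity for 2-transitive actions (helper33)
-/

set_option autoImplicit false

namespace Cfsg.Agent.Lib.Helper33

open Cfsg

theorem E_identity {G Ω : Type*} [Group G] [Fintype G] [MulAction G Ω] [Fintype Ω]
    (h2 : ∀ a b c d : Ω, a ≠ b → c ≠ d → ∃ g : G, g • a = c ∧ g • b = d)
    {χ : G → ℂ} (hχ : IsIrrCharacter G χ) (w : Ω → G → ℂ)
    (hw : ∀ (g : G) (p : Ω) (x : G), w (g • p) (g * x * g⁻¹) = w p x) (p₀ p₁ : Ω)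
    (h01 : p₀ ≠ p₁) :
    (Fintype.card Ω : ℂ) * (∑ x, w p₀ x * χ x) ^ 2
      = χ 1 * (∑ x, ∑ y, w p₀ x * w p₀ y * χ (x * y)
        + ((Fintype.card Ω : ℂ) - 1) * ∑ x, ∑ y, w p₀ x * w p₁ y * χ (x * y)) := by
  classical
  have : Nonempty Ω := ⟨p₀⟩
  have hcl : IsClassFunction G χ := Helper78.irr_isClassFunction ⟨χ, hχ⟩
  have hχ1 : χ 1 ≠ 0 := Helper78.irr_one_ne_zero ⟨χ, hχ⟩
  have hconj : ∀ (g : G) (f : G → ℂ), ∑ y, f y = ∑ y, f (g * y * g⁻¹) := by
    intro g f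
    rw [← Equiv.sum_comp (MulAut.conj g).toEquiv]
    rfl
  have hb : IsClassFunction G (fun y => ∑ p, w p y) := by
    intro g h
    show ∑ p, w p (h * g * h⁻¹) = ∑ p, w p g
    rw [← Equiv.sum_comp (MulAction.toPerm h)]
    refine Finset.sum_congr rfl fun p _ => ?_
    exact hw h p g
  have hA : ∀ (g : G) (p : Ω), ∑ y, w (g • p) y * χ y = ∑ y, w p y * χ y := by
    intro g p
    rw [hconj g]
    refine Finset.sum_congr rfl fun y _ => ?_
    rw [hw, hcl]
  have hB : ∀ (g : G) (p p' : Ω), ∑ x, ∑ y, w (g • p) x * w (g • p') y * χ (x * y)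
      = ∑ x, ∑ y, w p x * w p' y * χ (x * y) := by
    intro g p p'
    rw [hconj g]
    refine Finset.sum_congr rfl fun x _ => ?_
    rw [hconj g]
    refine Finset.sum_congr rfl fun y _ => ?_
    rw [hw, hw]
    have : g * x * g⁻¹ * (g * y * g⁻¹) = g * (x * y) * g⁻¹ := by group
    rw [this, hcl]
  have hA' : ∀ p : Ω, ∑ y, w p y * χ y = ∑ y, w p₀ y * χ y := by
    intro p
    by_cases hp : p = p₀
    · rw [hp]
    · obtain ⟨g, hg, -⟩ := h2 p₀ p₁ p p₀ h01 hp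
      rw [← hg, hA]
  have hB' : ∀ p : Ω, p ≠ p₀ → ∑ x, ∑ y, w p₀ x * w p y * χ (x * y)
      = ∑ x, ∑ y, w p₀ x * w p₁ y * χ (x * y) := by
    intro p hp
    obtain ⟨g, hg0, hg1⟩ := h2 p₀ p₁ p₀ p h01 (Ne.symm hp)
    have := hB g p₀ p₁
    rw [hg0, hg1] at this
    exact this
  have key := Helper78.omega_conv hχ (w p₀) hb
  unfold Helper78.omega at key
  rw [Helper78.sum_conv_mul] at key
  have e1 : ∑ x, ∑ y, w p₀ x * (∑ p, w p y) * χ (x * y)
      = ∑ x, ∑ y, w p₀ x * w p₀ y * χ (x * y)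
        + ((Fintype.card Ω : ℂ) - 1) * ∑ x, ∑ y, w p₀ x * w p₁ y * χ (x * y) := by
    have e2 : ∑ x, ∑ y, w p₀ x * (∑ p, w p y) * χ (x * y)
        = ∑ p, ∑ x, ∑ y, w p₀ x * w p y * χ (x * y) := by
      simp_rw [Finset.mul_sum, Finset.sum_mul]
      rw [Finset.sum_comm]
      conv_rhs => rw [Finset.sum_comm]
      rw [Finset.sum_comm]
      refine Finset.sum_congr rfl fun x _ => ?_
      rw [Finset.sum_comm]
    rw [e2, ← Finset.add_sum_erase _ _ (Finset.mem_univ p₀)]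
    congr 1
    rw [Finset.sum_congr rfl fun p hp => hB' p (Finset.ne_of_mem_erase hp), Finset.sum_const,
      Finset.card_erase_of_mem (Finset.mem_univ p₀), Finset.card_univ, nsmul_eq_mul,
      Nat.cast_sub Fintype.card_pos, Nat.cast_one]
  have e3 : ∑ y, (∑ p, w p y) * χ y = (Fintype.card Ω : ℂ) * ∑ y, w p₀ y * χ y := by
    simp_rw [Finset.sum_mul]
    rw [Finset.sum_comm, Finset.sum_congr rfl fun p _ => hA' p, Finset.sum_const, Finset.card_univ,
      nsmul_eq_mul]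
  rw [e1, e3] at key
  field_simp at key
  linear_combination -key
  
end Cfsg.Agent.Lib.Helper33
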