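import Cfsg.Agent.Lib.Helper33.ThompsonA

set_option autoImplicit false

namespace Cfsg.Agent.Lib.Helper33

open scoped Pointwise commutatorElement
open Cfsg

variable {G : Type*} [Group G] [Finite G] {p : ℕ} [Fact p.Prime]

/-- if `J(T)` is not normal in `H`, some element of `T` outside `O_p(H)` acts quadratically on
`Z(O_p(H))` (Thompson's replacement theorem). -/
theorem exists_quadratic_of_J_not_normal {H T : Subgroup G} (hT : RelSyl p T H)
    (hJ : ¬ H ≤ Subgroup.normalizer ((thompsonSubgroupAOf T : Subgroup G) : Set G)) :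
    ∃ g : G, g ∈ T ∧ g ∉ pCoreOf p H ∧
      ⁅⁅pCoreOf p H ⊓ Subgroup.centralizer ((pCoreOf p H : Subgroup G) : Set G),
        Subgroup.zpowers g⁆, Subgroup.zpowers g⁆ = ⊥ := by
  set R := pCoreOf p H with hR
  set B := R ⊓ Subgroup.centralizer (R : Set G) with hB
  have hRT : R ≤ T := Cfsg.Agent.Lib.Helper9.pCoreOf_le_relSyl hT
  have hBT : B ≤ T := inf_le_left.trans hRT
  have hBab : ∀ a ∈ B, ∀ b ∈ B, a * b = b * a := fun a ha b hb =>
    (Subgroup.mem_centralizer_iff.1 hb.2) a ha.1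
  have hTB : T ≤ Subgroup.normalizer (B : Set G) := by
    intro t ht
    rw [mem_normalizer_iff_smul, hB, Cfsg.Agent.Lib.Helper9.conj_smul_center,
      mem_normalizer_iff_smul.1 (Cfsg.Agent.Lib.Helper47.le_normalizer_pCoreOf H (hT.1 ht))]
  obtain ⟨A0, hA0, hA0R⟩ := exists_maxAb_not_le_pCoreOf hT hJ
  have hfin : {A : Subgroup G | MaxAb T A ∧ ¬ A ≤ R}.Finite := Set.toFinite _
  obtain ⟨A, ⟨hA, hAR⟩, hmax⟩ := Set.exists_max_image _ (fun A : Subgroup G => Nat.card ↥(A ⊓ B))
    hfin ⟨A0, hA0, hA0R⟩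
  have hBA : B ≤ Subgroup.normalizer (A : Set G) := by
    by_contra hBA
    have : Group.IsNilpotent ↥T := hT.2.1.isNilpotent
    have hB' : B.subgroupOf T ≤ Subgroup.centralizer ((B.subgroupOf T : Subgroup ↥T) : Set ↥T) := by
      intro b hb
      rw [Subgroup.mem_centralizer_iff]
      intro a ha
      exact Subtype.ext (hBab a ha b hb)
    have hAB' : A.subgroupOf T ≤ Subgroup.normalizer ((B.subgroupOf T : Subgroup ↥T) : Set ↥T) := by
      intro a _
      rw [Subgroup.mem_normalizer_iff]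
      intro h
      exact Subgroup.mem_normalizer_iff.1 (hTB a.2) (h : G)
    have hBA' : ¬ B.subgroupOf T ≤
        Subgroup.normalizer ((A.subgroupOf T : Subgroup ↥T) : Set ↥T) := by
      intro hle
      apply hBA
      intro b hb
      have h1 : (⟨b, hBT hb⟩ : ↥T) ∈
          Subgroup.normalizer ((A.subgroupOf T : Subgroup ↥T) : Set ↥T) := hle hb
      rw [mem_normalizer_iff_smul]
      apply conj_smul_eq_of_le
      rintro _ ⟨a, ha, rfl⟩
      exact (Subgroup.mem_normalizer_iff.1 h1 ⟨a, hA.1 ha⟩).1 ha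
    obtain ⟨Astar, h2, h3, h4, -⟩ := Cfsg.Agent.Lib.Helper51.thompson_replacement
      hA.subgroupOf_mem (B.subgroupOf T) hB' hAB' hBA'
    have hAs : MaxAb T (Astar.map T.subtype) := (maxAb_map_iff Astar).1 h2
    have hinj := Subgroup.subtype_injective T
    have h5 : A ⊓ B < Astar.map T.subtype ⊓ B := by
      have := (Subgroup.map_lt_map_iff_of_injective hinj).2 h3
      rwa [Subgroup.map_inf _ _ _ hinj, Subgroup.map_inf _ _ _ hinj,
        Subgroup.map_subgroupOf_eq_of_le hA.1, Subgroup.map_subgroupOf_eq_of_le hBT] at this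
    have hAsR : Astar.map T.subtype ≤ R := by
      by_contra hn
      exact absurd (hmax _ ⟨hAs, hn⟩) (not_le.2 (card_lt_of_lt h5))
    have h6 : B ≤ Astar.map T.subtype := by
      apply hAs.le_of_centralizes hBT hBab
      intro d hd a ha
      exact ((Subgroup.mem_centralizer_iff.1 hd.2) a (hAsR ha)).symm
    apply hBA'
    refine le_trans ?_ h4
    intro b hb
    obtain ⟨c, hc, hcb⟩ := h6 hb
    rwa [← hinj hcb]
  obtain ⟨g, hgA, hgR⟩ := SetLike.not_le_iff_exists.1 hAR
  refine ⟨g, hA.1 hgA, hgR, ?_⟩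
  rw [Subgroup.commutator_eq_bot_iff_le_centralizer]
  have h1 : ⁅B, Subgroup.zpowers g⁆ ≤ A := by
    rw [Subgroup.commutator_le]
    intro b hb z hz
    have hzA : z ∈ A := (Subgroup.zpowers_le.2 hgA) hz
    have h2 : b * z * b⁻¹ ∈ A := (Subgroup.mem_normalizer_iff.1 (hBA hb) z).1 hzA
    rw [commutatorElement_def]
    exact A.mul_mem h2 (A.inv_mem hzA)
  refine h1.trans ?_
  intro a ha
  rw [Subgroup.mem_centralizer_iff]
  intro z hz
  exact hA.2.1 z ((Subgroup.zpowers_le.2 hgA) hz) a ha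

end Cfsg.Agent.Lib.Helper33
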