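import Cfsg.Agent.Lib.Helper33.S4FreeCore
import Cfsg.Agent.Lib.Helper33.ThompsonAQuad
import Cfsg.Agent.Lib.Helper9.WeakClosure5

set_option autoImplicit false

namespace Cfsg.Agent.Lib.Helper33

open scoped Pointwise commutatorElement
open Cfsg Cfsg.Agent.Lib.Helper9

variable {G : Type*} [Group G]

theorem MaxAb.subgroupOf {H S A : Subgroup G} (hSH : S ≤ H) (h : MaxAb S A) :
    MaxAb (S.subgroupOf H) (A.subgroupOf H) := by
  refine ⟨fun a ha => h.1 ha, fun a ha b hb => Subtype.ext (h.2.1 a ha b hb), ?_⟩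
  intro B hB hBab
  rw [card_subgroupOf_of_le (h.1.trans hSH), ← card_map_subtype B]
  apply h.2.2
  · rintro _ ⟨b, hb, rfl⟩
    exact hB hb
  · rintro _ ⟨a, ha, rfl⟩ _ ⟨b, hb, rfl⟩
    exact congrArg Subtype.val (hBab a ha b hb)

theorem iterCommutator_eq_bot_of_le {N K : Subgroup G} {m : ℕ} (h : iterCommutator N K m = ⊥) :
    ∀ n, m ≤ n → iterCommutator N K n = ⊥ := by
  intro n hn
  induction n, hn using Nat.le_induction with
  | base => exact h
  | succ n _ ih =>
    show ⁅iterCommutator N K n, K⁆ = ⊥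
    rw [ih]
    exact Subgroup.commutator_bot_left K

variable [Finite G]

/-- weak closure of elements of `Z(N(J(S)))` in `S₄`-free groups. -/
theorem WCS_S4free [Fact (Nat.Prime 2)] (hS4 : ¬ Involves (Equiv.Perm (Fin 4)) G)
    (H : Subgroup G) :
    WCS 2 (fun T : Subgroup G => thompsonSubgroupAOf T) (fun S A => (∃ x, A = {x}) ∧
      A ⊆ (S ⊓ Subgroup.centralizer (S : Set G) : Subgroup G)) H := by
  induction H using WellFoundedLT.induction with
  | _ H IH =>
  intro S hS A hA hAN h hh hhA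
  by_contra hne
  obtain ⟨hAR, hmax, hnot, hWn⟩ := WCS_reduction (isConjugacyFunctor_J 2)
    (fun P _ => center_le_J P)
    (Adm := fun S A => (∃ x, A = {x}) ∧ A ⊆ (S ⊓ Subgroup.centralizer (S : Set G) : Subgroup G))
    (fun S A hA => hA.2)
    (fun S S₁ A hA h1 h2 => ⟨hA.1, fun a ha => ⟨h2 (hA.2 ha),
      (Subgroup.centralizer_le h1) (hA.2 ha).2⟩⟩) IH hS hA hAN hh hhA hne
  obtain ⟨⟨x, rfl⟩, hxZ⟩ := hA
  obtain ⟨A₁, hA₁, hA₁R⟩ := exists_maxAb_not_le_pCoreOf hS hWn
  have hxR : x ∈ pCoreOf 2 H := hAR rfl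
  have hxCS : x ∈ Subgroup.centralizer (S : Set G) := (hxZ rfl).2
  have hxH : x ∈ H := hS.1 (hxZ rfl).1
  let S' : Sylow 2 ↥H := hS.toSylow
  have hS' : (S' : Subgroup ↥H) = S.subgroupOf H := hS.coe_toSylow
  apply hnot
  have key := central_of_S4free S' (fun hi => hS4 (involves_subgroup H hi)) ⟨x, hxH⟩
    (by
      obtain ⟨r, hr, hrx⟩ := hxR
      have e : r = ⟨x, hxH⟩ := Subtype.ext hrx
      exact e ▸ hr)
    (by
      intro s hs
      rw [hS'] at hs
      apply Subtype.ext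
      show (s : G) * x * (s : G)⁻¹ = x
      rw [(Subgroup.mem_centralizer_iff.1 hxCS) s hs]; group)
    (by
      intro M hSM hM m hm
      have h1 : S ≤ M.map H.subtype := by
        intro s hs
        exact ⟨⟨s, hS.1 hs⟩, hSM (by rw [hS']; exact hs), rfl⟩
      have h2 : M.map H.subtype < H := by
        refine lt_of_le_of_ne (Subgroup.map_subtype_le _) ?_
        intro hEq
        apply hM
        rw [eq_top_iff]
        intro y _
        have : (y : G) ∈ M.map H.subtype := by rw [hEq]; exact y.2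
        obtain ⟨z, hz, hzy⟩ := this
        rw [← Subgroup.subtype_injective H hzy]; exact hz
      apply Subtype.ext
      exact mem_cStab_singleton.1 (hmax _ h1 h2 ⟨m, hm, rfl⟩))
    (A := A₁.subgroupOf H) (by rw [hS']; exact hA₁.subgroupOf hS.1)
    (by
      intro hle
      apply hA₁R
      intro a ha
      exact ⟨⟨a, hS.1 (hA₁.1 ha)⟩, hle ha, rfl⟩)
  intro g hg
  rw [mem_cStab_singleton]
  exact congrArg Subtype.val (key ⟨g, hg⟩)

variable {p : ℕ} [Fact p.Prime]

theorem J_hloc_quadratic (H T : Subgroup G) (h1 : T ≤ H) (h2 : IsPGroup p ↥T)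
    (h3 : ¬ p ∣ T.relIndex H)
    (h4 : ¬ H ≤ Subgroup.normalizer ((thompsonSubgroupAOf T : Subgroup G) : Set G)) :
    ∃ g : G, g ∈ T ∧ g ∉ pCoreOf p H ∧
      ⁅⁅pCoreOf p H ⊓ Subgroup.centralizer ((pCoreOf p H : Subgroup G) : Set G),
        Subgroup.zpowers g⁆, Subgroup.zpowers g⁆ = ⊥ :=
  exists_quadratic_of_J_not_normal ⟨h1, h2, h3⟩ h4

theorem J_hloc_engel (hp : p ≠ 2) (H T : Subgroup G) (h1 : T ≤ H) (h2 : IsPGroup p ↥T)
    (h3 : ¬ p ∣ T.relIndex H)
    (h4 : ¬ H ≤ Subgroup.normalizer ((thompsonSubgroupAOf T : Subgroup G) : Set G)) :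
    ∃ g : G, g ∈ T ∧ g ∉ pCoreOf p H ∧ ∀ U V : Subgroup ↥H, IsChiefFactor U V →
      U.map H.subtype ≤ pCoreOf p H ⊓ Subgroup.centralizer ((pCoreOf p H : Subgroup G) : Set G) →
      iterCommutator (U.map H.subtype) (Subgroup.zpowers g) (p - 1) ≤ V.map H.subtype := by
  obtain ⟨g, hg1, hg2, hg3⟩ := J_hloc_quadratic H T h1 h2 h3 h4
  refine ⟨g, hg1, hg2, fun U V _ hU => ?_⟩
  have h5 : iterCommutator (U.map H.subtype) (Subgroup.zpowers g) 2 = ⊥ := by
    rw [eq_bot_iff, ← hg3]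
    exact Subgroup.commutator_mono (Subgroup.commutator_mono hU le_rfl) le_rfl
  have hp2 : 2 ≤ p - 1 := by
    have := (Fact.out : p.Prime).two_le
    omega
  rw [iterCommutator_eq_bot_of_le h5 _ hp2]
  exact bot_le

/-- **Glauberman**: elements of `S ∩ Z(N(J(S)))` are weakly closed in `S`. -/
theorem weaklyClosed_of_center_normalizer_J (S : Sylow p G) (x : G)
    (hxS : x ∈ (S : Subgroup G))
    (hxN : ∀ n ∈ Subgroup.normalizer ((thompsonSubgroupAOf (S : Subgroup G) : Subgroup G) : Set G),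
      n * x * n⁻¹ = x)
    (h : p ≠ 2 ∨ (∃ z ∈ (S : Subgroup G) ⊓ Subgroup.centralizer ((S : Subgroup G) : Set G),
      z ^ p = x) ∨ ¬ Involves (Equiv.Perm (Fin 4)) G) :
    ∀ g : G, g * x * g⁻¹ ∈ (S : Subgroup G) → g * x * g⁻¹ = x := by
  intro g hg
  have hSN : (S : Subgroup G) ≤
      Subgroup.normalizer ((thompsonSubgroupAOf (S : Subgroup G) : Subgroup G) : Set G) :=
    Subgroup.le_normalizer.trans (IsConjugacyFunctor.normalizer_le (isConjugacyFunctor_J p) S.2)
  have hxZ : x ∈ (S : Subgroup G) ⊓ Subgroup.centralizer ((S : Subgroup G) : Set G) := by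
    refine ⟨hxS, Subgroup.mem_centralizer_iff.2 fun s hs => ?_⟩
    calc s * x = (s * x * s⁻¹) * s := by group
      _ = x * s := by rw [hxN s (hSN hs)]
  have hAN : (⊤ : Subgroup G) ⊓
      Subgroup.normalizer ((thompsonSubgroupAOf (S : Subgroup G) : Subgroup G) : Set G) ≤
      cStab {x} := by
    rintro y ⟨-, hy⟩
    exact mem_cStab_singleton.2 (hxN y hy)
  have hgS : MulAut.conj g • ({x} : Set G) ⊆ (S : Subgroup G) := by
    rw [Set.smul_set_singleton, Set.singleton_subset_iff]; exact hg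
  have hodd : p ≠ 2 → g * x * g⁻¹ = x := by
    intro hp
    have h1 := WCS_engel (W := fun T : Subgroup G => thompsonSubgroupAOf T)
      (isConjugacyFunctor_J p) (fun P _ => center_le_J P)
      (fun H T h1 h2 h3 h4 => J_hloc_engel hp H T h1 h2 h3 h4) ⊤
    exact mem_cStab_singleton.1 (h1 S (relSyl_top S) {x}
      ⟨⟨x, rfl⟩, Set.singleton_subset_iff.2 hxZ⟩ hAN g (Subgroup.mem_top _) hgS)
  rcases h with hp | ⟨z, hz, rfl⟩ | hS4
  · exact hodd hp
  · have h1 := WCS_quadratic (W := fun T : Subgroup G => thompsonSubgroupAOf T)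
      (isConjugacyFunctor_J p) (fun P _ => center_le_J P)
      (fun H T h1 h2 h3 h4 => J_hloc_quadratic H T h1 h2 h3 h4) ⊤
    exact mem_cStab_singleton.1 (h1 S (relSyl_top S) {z ^ p}
      (Set.singleton_subset_iff.2 (Subgroup.subset_closure ⟨z, hz, rfl⟩)) hAN g
      (Subgroup.mem_top _) hgS)
  · by_cases hp : p = 2
    · subst hp
      exact mem_cStab_singleton.1 (WCS_S4free hS4 ⊤ S (relSyl_top S) {x}
        ⟨⟨x, rfl⟩, Set.singleton_subset_iff.2 hxZ⟩ hAN g (Subgroup.mem_top _) hgS)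
    · exact hodd hp

end Cfsg.Agent.Lib.Helper33
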