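import Cfsg.Agent.Lib.Helper33.LinkStab
import Cfsg.Agent.Lib.Helper33.S4Pattern
import Cfsg.Agent.Lib.Helper33.ChiefFactor
import Cfsg.Agent.Lib.Helper96.BaerSuzuki
import Cfsg.Agent.Lib.Helper9.WeakClosure2

set_option autoImplicit false

namespace Cfsg.Agent.Lib.Helper33

open scoped Pointwise
open Cfsg

variable {X : Type*} [Group X]

/-- `d` acts on `V` as a transvection with centre `c` (or trivially). -/
def Tv (V : Subgroup X) (d c : X) : Prop :=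
  c ∈ V ∧ c * c = 1 ∧ d * c * d⁻¹ = c ∧ ∀ v ∈ V, d * v * d⁻¹ = v ∨ d * v * d⁻¹ = c * v

theorem Tv.conj {V : Subgroup X} (hV : V.Normal) {d c : X} (h : Tv V d c) (g : X) :
    Tv V (g * d * g⁻¹) (g * c * g⁻¹) := by
  obtain ⟨h1, h2, h3, h4⟩ := h
  refine ⟨hV.conj_mem c h1 g, ?_, ?_, ?_⟩
  · calc g * c * g⁻¹ * (g * c * g⁻¹) = g * (c * c) * g⁻¹ := by group
      _ = 1 := by rw [h2]; group
  · calc g * d * g⁻¹ * (g * c * g⁻¹) * (g * d * g⁻¹)⁻¹ = g * (d * c * d⁻¹) * g⁻¹ := by group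
      _ = g * c * g⁻¹ := by rw [h3]
  · intro v hv
    have hv0 : g⁻¹ * v * g ∈ V := by
      have := hV.conj_mem v hv g⁻¹
      simpa using this
    have e : g * d * g⁻¹ * v * (g * d * g⁻¹)⁻¹ = g * (d * (g⁻¹ * v * g) * d⁻¹) * g⁻¹ := by group
    rcases h4 _ hv0 with h | h
    · left; rw [e, h]; group
    · right; rw [e, h]; group

theorem pow_four_mem_centralizer_of_fix [Finite X] {V : Subgroup X}
    (hVab : ∀ a ∈ V, ∀ b ∈ V, a * b = b * a) {d₁ c₁ d₂ c₂ : X} (h₁ : Tv V d₁ c₁)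
    (h₂ : Tv V d₂ c₂) (hfix : d₂ * c₁ * d₂⁻¹ = c₁) :
    ∀ l ∈ Subgroup.zpowers d₁ ⊔ Subgroup.zpowers d₂, l ^ 4 ∈ Subgroup.centralizer (V : Set X) := by
  set Z₁ := Subgroup.zpowers c₁ with hZ₁
  set W₁ := Subgroup.closure ({c₁, c₂} : Set X) with hW₁
  have hc₁W : c₁ ∈ W₁ := Subgroup.subset_closure (by simp)
  have hc₂W : c₂ ∈ W₁ := Subgroup.subset_closure (by simp)
  have hZW : Z₁ ≤ W₁ := Subgroup.zpowers_le.2 hc₁W
  have hWV : W₁ ≤ V := by
    rw [hW₁, Subgroup.closure_le]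
    rintro _ (rfl | rfl)
    · exact h₁.1
    · exact h₂.1
  have hW2 : ∀ b ∈ W₁, b * b = 1 := by
    intro b hb
    have := Cfsg.Agent.Lib.Helper9.sq_eq_one_of_mem_closure (k := ({c₁, c₂} : Set X))
      (by
        intro x hx y hy
        exact hVab x (hWV (Subgroup.subset_closure hx)) y (hWV (Subgroup.subset_closure hy)))
      (by
        rintro x (rfl | rfl)
        · rw [pow_two]; exact h₁.2.1
        · rw [pow_two]; exact h₂.2.1) b hb
    rwa [pow_two] at this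
  have hcomm : ∀ d z : X, d * z * d⁻¹ = z → z ∈ Subgroup.centralizer ({d} : Set X) := by
    intro d z h
    rw [Subgroup.mem_centralizer_singleton_iff]
    calc z * d = (d * z * d⁻¹) * d := by rw [h]
      _ = d * z := by group
  have hcomm' : ∀ d z : X, z ∈ Subgroup.centralizer ({d} : Set X) → d * z * d⁻¹ * z⁻¹ = 1 := by
    intro d z h
    rw [Subgroup.mem_centralizer_singleton_iff] at h
    rw [← h]; group
  have hVW : ∀ (d c : X), Tv V d c → c ∈ W₁ → d ∈ linkStab V W₁ hWV := by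
    intro d c h hc v hv
    rcases h.2.2.2 v hv with e | e
    · rw [e, mul_inv_cancel]; exact W₁.one_mem
    · rw [e, mul_inv_cancel_right]; exact hc
  have hd₁WZ : d₁ ∈ linkStab W₁ Z₁ hZW := by
    intro w hw
    rcases h₁.2.2.2 w (hWV hw) with e | e
    · rw [e, mul_inv_cancel]; exact Z₁.one_mem
    · rw [e, mul_inv_cancel_right]; exact Subgroup.mem_zpowers c₁
  have hd₂WZ : d₂ ∈ linkStab W₁ Z₁ hZW := by
    intro w hw
    have hle : W₁ ≤ Subgroup.centralizer ({d₂} : Set X) := by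
      rw [hW₁, Subgroup.closure_le]
      rintro _ (rfl | rfl)
      · exact hcomm _ _ hfix
      · exact hcomm _ _ h₂.2.2.1
    rw [hcomm' _ _ (hle hw)]
    exact Z₁.one_mem
  have hZbot : ∀ d : X, d * c₁ * d⁻¹ = c₁ → d ∈ linkStab Z₁ ⊥ bot_le := by
    intro d h z hz
    have hle : Z₁ ≤ Subgroup.centralizer ({d} : Set X) := Subgroup.zpowers_le.2 (hcomm _ _ h)
    rw [hcomm' _ _ (hle hz)]
    exact Subgroup.one_mem _
  set St := linkStab V W₁ hWV ⊓ linkStab W₁ Z₁ hZW ⊓ linkStab Z₁ ⊥ bot_le with hSt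
  have hle : Subgroup.zpowers d₁ ⊔ Subgroup.zpowers d₂ ≤ St := by
    refine sup_le (Subgroup.zpowers_le.2 ?_) (Subgroup.zpowers_le.2 ?_)
    · exact ⟨⟨hVW d₁ c₁ h₁ hc₁W, hd₁WZ⟩, hZbot d₁ h₁.2.2.1⟩
    · exact ⟨⟨hVW d₂ c₂ h₂ hc₂W, hd₂WZ⟩, hZbot d₂ hfix⟩
  intro l hl
  obtain ⟨⟨hl1, hl2⟩, hl3⟩ := hle hl
  have s1 := sq_link (A := V) (B := W₁) (Z := Z₁) hW2 hl1 hl2
  have s2 : ∀ b ∈ Z₁, (l * l) * b * (l * l)⁻¹ * b⁻¹ ∈ (⊥ : Subgroup X) :=
    (linkStab Z₁ ⊥ bot_le).mul_mem hl3 hl3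
  have s3 := sq_link (A := V) (B := Z₁) (Z := ⊥) (fun b hb => hW2 b (hZW hb)) s1 s2
  rw [Subgroup.mem_centralizer_iff]
  intro v hv
  have h5 := Subgroup.mem_bot.1 (s3 v hv)
  have e4 : l ^ 4 = l * l * (l * l) := by
    simp only [pow_succ, pow_zero, one_mul, mul_assoc]
  rw [e4]
  generalize l * l * (l * l) = m at h5
  calc v * m = (m * v * m⁻¹ * v⁻¹)⁻¹ * m * v := by group
    _ = m * v := by rw [h5, inv_one, one_mul]

/-- two transvections generate a `2`-group modulo the centralizer, unless `S₄` is involved. -/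
theorem pow_four_mem_centralizer_of_pair [Finite X] {V : Subgroup X}
    (hVab : ∀ a ∈ V, ∀ b ∈ V, a * b = b * a) (hS4 : ¬ Involves (Equiv.Perm (Fin 4)) X)
    {d₁ c₁ d₂ c₂ : X} (h₁ : Tv V d₁ c₁) (h₂ : Tv V d₂ c₂) :
    ∀ l ∈ Subgroup.zpowers d₁ ⊔ Subgroup.zpowers d₂, l ^ 4 ∈ Subgroup.centralizer (V : Set X) := by
  by_cases hA : d₂ * c₁ * d₂⁻¹ = c₁
  · exact pow_four_mem_centralizer_of_fix hVab h₁ h₂ hA
  by_cases hB : d₁ * c₂ * d₁⁻¹ = c₂
  · rw [sup_comm]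
    exact pow_four_mem_centralizer_of_fix hVab h₂ h₁ hB
  exfalso
  apply hS4
  have hA' := (h₂.2.2.2 c₁ h₁.1).resolve_left hA
  have hB' := (h₁.2.2.2 c₂ h₂.1).resolve_left hB
  have hc := hVab c₁ h₁.1 c₂ h₂.1
  refine involves_S4_of_pattern (c₁ := c₁) (c₂ := c₂) (a := d₁) (b := d₂) h₁.2.1 h₂.2.1 hc ?_ ?_ ?_
    h₁.2.2.1 hB' (by rw [hA', hc]) h₂.2.2.1
  · rintro rfl
    apply hB; rw [hB', one_mul]
  · rintro rfl
    apply hA; rw [hA', one_mul]
  · rintro rfl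
    exact hB h₁.2.2.1

/-- Baer–Suzuki: in an `S₄`-free group a transvection on the normal abelian subgroup `V` lies in
`O_2` modulo the centralizer of `V`. -/
theorem exists_normal_of_transvection [Finite X] {V : Subgroup X} (hVn : V.Normal)
    (hVab : ∀ a ∈ V, ∀ b ∈ V, a * b = b * a) (hS4 : ¬ Involves (Equiv.Perm (Fin 4)) X)
    {d c : X} (h : Tv V d c) :
    ∃ D : Subgroup X, D.Normal ∧ d ∈ D ∧ Subgroup.centralizer (V : Set X) ≤ D ∧
      ∀ u ∈ D, ∃ k : ℕ, u ^ 2 ^ k ∈ Subgroup.centralizer (V : Set X) := by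
  have : Fact (Nat.Prime 2) := ⟨Nat.prime_two⟩
  set C := Subgroup.centralizer (V : Set X) with hC
  have hCn : C.Normal := inferInstance
  set π := QuotientGroup.mk' C with hπ
  have hπ1 : ∀ a, π a = 1 ↔ a ∈ C := fun a => QuotientGroup.eq_one_iff a
  have hBS : ∀ g' : X ⧸ C, IsPGroup 2
      ↥(Subgroup.zpowers (π d) ⊔ MulAut.conj g' • Subgroup.zpowers (π d)) := by
    intro g'
    obtain ⟨g, rfl⟩ := QuotientGroup.mk'_surjective C g'
    have e : Subgroup.zpowers (π d) ⊔ MulAut.conj (π g) • Subgroup.zpowers (π d) =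
        (Subgroup.zpowers d ⊔ Subgroup.zpowers (g * d * g⁻¹)).map π := by
      rw [Subgroup.map_sup, MonoidHom.map_zpowers, MonoidHom.map_zpowers, conj_smul_zpowers]
      simp
    have e' : Subgroup.zpowers (π d) ⊔ MulAut.conj ((QuotientGroup.mk' C) g) •
        Subgroup.zpowers (π d) = (Subgroup.zpowers d ⊔ Subgroup.zpowers (g * d * g⁻¹)).map π := e
    rw [e']
    rintro ⟨_, l, hl, rfl⟩
    refine ⟨2, Subtype.ext ?_⟩
    show (π l) ^ 2 ^ 2 = 1
    rw [← map_pow, hπ1]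
    exact pow_four_mem_centralizer_of_pair hVab hS4 h (h.conj hVn g) l hl
  have hN := Cfsg.Agent.Lib.Helper96.baerSuzuki_normalClosure _ hBS
  refine ⟨(Subgroup.normalClosure ((Subgroup.zpowers (π d) : Subgroup (X ⧸ C)) : Set (X ⧸ C))).comap π,
    inferInstance, ?_, ?_, ?_⟩
  · exact Subgroup.le_normalClosure (Subgroup.mem_zpowers (π d))
  · intro a ha
    rw [Subgroup.mem_comap, (hπ1 a).2 ha]
    exact Subgroup.one_mem _
  · intro u hu
    obtain ⟨k, hk⟩ := hN ⟨π u, hu⟩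
    refine ⟨k, ?_⟩
    rw [← hπ1, map_pow]
    exact congrArg Subtype.val hk

end Cfsg.Agent.Lib.Helper33
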